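/- S3694 (tower SIM), chapter D: job D6A. -/
import Cfsg.Agent.H11.SimDSpec

set_option autoImplicit false

namespace H40.SimD6A

open Subgroup Cfsg H98 Matrix H0.Sim H11.SimD

theorem jobD_D6A : H11.SimD.JobD6A := by
  intro dl de n F _ _ q Θ H Q E g W₁ W₂ j c cl hj ja e1 e2 m1 m2
  obtain ⟨d1, d2, d3⟩ := dl n F j
  obtain ⟨k1, k2⟩ := (de n F j ja).1 (mat E)
  rw [th_image c.cf.ivE hj, e1, e2] at k1 k2
  have inj : ∀ {U W : Submodule F (Fin n → F)}, del j U = del j W ↔ U = W := fun {U W} =>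
    ⟨fun e => le_antisymm ((d2 U W).1.1 e.ge) ((d2 W U).1.1 e.le), fun e => e ▸ rfl⟩
  refine ⟨del j (mg g W₂), del j (mg g W₁), (d2 _ _).1.2 (mg_mono g c.bs.le), ?_, ?_,
    by rw [← inj (W := W₂), ← k1], by rw [← inj (W := W₁), ← k2], fun h hh => ?_⟩
  · have a := d1 (mg g W₂)
    have b := d1 W₂
    rw [finrank_mg] at a
    rw [← k1] at b
    omega
  · have a := d1 (mg g W₁)
    have b := d1 W₁
    rw [finrank_mg] at a
    rw [← k2] at b
    omega
  · obtain ⟨l1, l2⟩ := (de n F ⟨h * j.c, j.σ, j.a⟩ ja).1 (mat (cj g E))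
    rw [m2, d3] at l1
    rw [m1, d3] at l2
    have st := c.cf.nb2 _ (cl j hj h hh)
    constructor
    · rintro _ ⟨b, hb, rfl⟩ _
      exact l1 ▸ St.sb_IS (st b hb)
    · rintro _ ⟨b, hb, rfl⟩ _
      exact l2 ▸ St.sb_KS (st b hb)

end H40.SimD6A
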