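import Cfsg.Agent.Base
import Cfsg.Prelude.Def_Transfer

set_option autoImplicit false
open Cfsg

namespace H40.CS
universe u

/-- Class size. -/
noncomputable abbrev cs {G : Type u} [Group G] (g : G) : ℕ := (Subgroup.centralizer ({g} : Set G)).index

/-- `g` is an `s`-element. -/
def IsPrim {G : Type u} [Group G] (s : ℕ) (g : G) : Prop := ∃ k : ℕ, orderOf g = s ^ k

/-- The class size of `g` divides a class size divisible by `p`. -/
def XS {G : Type u} [Group G] (p : ℕ) (g : G) : Prop := ∃ x : G, p ∣ cs x ∧ cs g ∣ cs x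

/-- Standing hypothesis (a counterexample to S4161). -/
structure Hyp (G : Type u) [Group G] (p q : ℕ) : Prop where
  hp : p.Prime
  hq : q.Prime
  ne : p ≠ q
  ns : ¬ Group.IsSolvable G
  exX : ∃ x : G, p ∣ cs x
  exY : ∃ y : G, q ∣ cs y
  cop : ∀ x y : G, p ∣ cs x → q ∣ cs y → (cs x).Coprime (cs y)

theorem Hyp.symm {G : Type u} [Group G] {p q : ℕ} (h : Hyp G p q) : Hyp G q p :=
  ⟨h.hq, h.hp, h.ne.symm, h.ns, h.exY, h.exX, fun x y hx hy => (h.cop y x hy hx).symm⟩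

theorem Hyp.cop' {G : Type u} [Group G] {p q : ℕ} (h : Hyp G p q) {g k : G} (hg : XS p g) (hk : XS q k) :
    (cs g).Coprime (cs k) := by
  obtain ⟨x, hx, hgx⟩ := hg
  obtain ⟨y, hy, hky⟩ := hk
  exact ((h.cop x y hx hy).coprime_dvd_left hgx).coprime_dvd_right hky

theorem XS.self {G : Type u} [Group G] {p : ℕ} {g : G} (h : p ∣ cs g) : XS p g := ⟨g, h, dvd_rfl⟩

/-- The five basic facts on class sizes in one finite group. -/
structure Bas (G : Type u) [Group G] : Prop where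
  /-- coprime class sizes: every conjugate of `h` is a conjugate under the centralizer of `g`. -/
  f1 : ∀ g h : G, (cs g).Coprime (cs h) → ∀ k : G, ∃ c : G, Commute c g ∧ k * h * k⁻¹ = c * h * c⁻¹
  /-- commuting elements of coprime orders. -/
  f2 : ∀ a b : G, Commute a b → (orderOf a).Coprime (orderOf b) → cs a ∣ cs (a * b)
  /-- class size prime to `s` means centralizing a Sylow `s`-subgroup. -/
  f3 : ∀ (s : ℕ) [Fact s.Prime] (g : G), ¬ s ∣ cs g ↔ ∃ T : Sylow s G, ∀ t ∈ T, Commute t g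
  /-- an `s`-central `s'`-element `b` absorbs every `s`-element. -/
  f5 : ∀ (s : ℕ), s.Prime → ∀ b d : G, ¬ s ∣ cs b → ¬ s ∣ orderOf b → IsPrim s d →
    ∃ x : G, cs b ∣ cs x ∧ cs d ∣ cs x
  /-- an `s`-element and an `s`-central element with coprime class sizes commute. -/
  f6 : ∀ (s : ℕ), s.Prime → ∀ g h : G, IsPrim s g → ¬ s ∣ cs h → (cs g).Coprime (cs h) → Commute g h

def JobB : Prop := ∀ (G : Type u) [Group G] [Finite G], Bas G

/-- Coset count. -/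
def JobU : Prop := JobB.{u} → ∀ (G : Type u) [Group G] [Finite G] (s : ℕ), s.Prime → ∀ U : Subgroup G, U.Normal → U ≠ ⊤ →
  (∀ g : G, g ∉ U → ¬ s ∣ cs g) →
  HasNormalPComplement s G ∧ ∀ g : G, g ∉ U → ∀ x : G, Commute g x → ¬ s ∣ cs x

def ConcU : Prop := ∀ (G : Type u) [Group G] [Finite G] (s : ℕ), s.Prime → ∀ U : Subgroup G, U.Normal → U ≠ ⊤ →
  (∀ g : G, g ∉ U → ¬ s ∣ cs g) →
  HasNormalPComplement s G ∧ ∀ g : G, g ∉ U → ∀ x : G, Commute g x → ¬ s ∣ cs x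

def ConcV : Prop := ∀ (G : Type u) [Group G] [Finite G] (p q : ℕ), Hyp G p q → ∀ U : Subgroup G, U.Normal → U ≠ ⊤ →
  (∀ g : G, g ∉ U → q ∣ cs g) → False

def JobV : Prop := ConcU.{u} → ConcV.{u}

def ConcN : Prop := ∀ (G : Type u) [Group G] [Finite G] (p q : ℕ), Hyp G p q → ∀ M : Subgroup G, M.Normal →
  (∀ g : G, IsPrim q g → g ∈ M) → ∃ m ∈ M, q ∣ cs m

def JobN : Prop := JobB.{u} → ConcV.{u} → ConcN.{u}

def ConcS : Prop := ∀ (G : Type u) [Group G] [Finite G],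
  (∀ t h : G, IsPrim 2 t → (∃ r : ℕ, r.Prime ∧ r ≠ 2 ∧ IsPrim r h) → (cs t).Coprime (cs h) ∨ ¬ 2 ∣ cs h) →
  Group.IsSolvable G

def JobS : Prop := JobB.{u} → ConcS.{u}

def JobA : Prop := JobB.{u} → ConcN.{u} → ∀ (G : Type u) [Group G] [Finite G] (p q : ℕ), Hyp G p q →
  HasNormalPComplement p G →
  (∀ a : G, IsPrim p a → XS q a) ∧ ∃ (b : G) (s : ℕ), s.Prime ∧ s ≠ p ∧ IsPrim s b ∧ p ∣ cs b

def JobI : Prop := JobB.{u} → ConcN.{u} → ∀ (G : Type u) [Group G] [Finite G] (p q : ℕ), Hyp G p q →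
  (∀ a : G, IsPrim p a → XS q a) → ∀ (b : G) (s : ℕ), s.Prime → IsPrim s b → p ∣ cs b →
  (∀ a : G, IsPrim p a → ¬ q ∣ cs a) → False

def JobAl : Prop := JobB.{u} → ConcS.{u} → ∀ (G : Type u) [Group G] [Finite G] (p q : ℕ), Hyp G p q →
  (∀ a : G, IsPrim p a → XS q a) → ∀ (b : G) (s : ℕ), s.Prime → IsPrim s b → p ∣ cs b →
  ∀ a : G, IsPrim p a → q ∣ cs a → (∀ d : G, IsPrim s d → XS p d) → False

def JobBe : Prop := JobB.{u} → ConcV.{u} → ∀ (G : Type u) [Group G] [Finite G] (p q : ℕ), Hyp G p q →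
  HasNormalPComplement p G →
  (∀ a : G, IsPrim p a → XS q a) → ∀ (b : G) (s : ℕ), s.Prime → s ≠ p → IsPrim s b → p ∣ cs b →
  ∀ a : G, IsPrim p a → q ∣ cs a → (∀ x : G, ¬ s ∣ orderOf x → ¬ p ∣ cs x) → False

end H40.CS
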