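/- Tower E82: a subgroup of `E₈(2)` with generalized Fitting subgroup `L₂(64)` is not maximal.
Definitions and job statements; the plan is in `blueprints/E82.md`. -/
import Cfsg.Agent.H40.E8FKit

set_option autoImplicit false

namespace H40.E82

open Cfsg.Lie H63 H64 H65 H46 H14.E8 Matrix Module H40.E8F H56.SL2M
open scoped MatrixGroups Classical

universe u

/-! ### Modules of `SL₂(2 ^ f)` in characteristic two -/

/-- The numbers whose binary digits are at most those of `j`. -/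
def sb (j : ℕ) : Finset ℕ := (Finset.range 64).filter fun r => r &&& j = r

/-- The number of weights `2 r - j` of the simple module `j` that are `m` modulo `n`. -/
def cw (n j m : ℕ) : ℕ := ((sb j).filter fun r => (2 * r + (n - 1) * j) % n = m % n).card

/-- The multiplicity of the weight `m` modulo `n` in a module with factors `J`. -/
def cJ (n : ℕ) (J : Multiset ℕ) (m : ℕ) : ℕ := (J.map fun j => cw n j m).sum

section defs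
variable {F : Type u} [Field F] [Fintype F] {k V : Type} [Field k] [AddCommGroup V] [Module k V]
  (ι : F →+* k) (ρ : Representation k SL(2, F) V)

/-- The coefficient of `t ^ r` in `ρ (xx t)`. -/
noncomputable def A (r : ℕ) : End k V :=
  if r = 0 then 1 else if r < Fintype.card F then
    ∑ a : F, ι a ^ (Fintype.card F - 1 - r) • ρ (xx a) else 0

/-- The sum of the elements of order at most two. -/
noncomputable def E : End k V := ∑ g ∈ Finset.univ.filter fun g : SL(2, F) => g * g = 1, ρ g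

/-- An invariant subspace. -/
def Inv (W : Submodule k V) : Prop := ∀ g, ∀ v ∈ W, ρ g v ∈ W

/-- `W' / W` is the simple module of highest weight `j`, with lowest weight vector `z`. -/
def Step (W W' : Submodule k V) (j : ℕ) : Prop :=
  j < Fintype.card F ∧ W ≤ W' ∧ Inv ρ W ∧ Inv ρ W' ∧ ∃ z ∈ W',
    (∀ v ∈ W', ∃ c : ℕ → k, v - ∑ r ∈ sb j, c r • A ι ρ r z ∈ W) ∧
    (∀ c : ℕ → k, ∑ r ∈ sb j, c r • A ι ρ r z ∈ W → ∀ r ∈ sb j, c r = 0) ∧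
    (∀ r ∉ sb j, A ι ρ r z ∈ W) ∧ (∀ s : Fˣ, ι s ^ j • ρ (hh s) z - z ∈ W) ∧
    ρ ww z - A ι ρ j z ∈ W ∧
    ∀ (y : SL(2, F)) (μ : kˣ) (n : ℕ), Eig ι y μ (μ⁻¹ : kˣ) → orderOf μ = n → Odd n → y ^ n = 1 →
      ∀ m : ℕ, finrank k ↥(W' ⊓ End.eigenspace (ρ y) ((μ : k) ^ m)) =
        finrank k ↥(W ⊓ End.eigenspace (ρ y) ((μ : k) ^ m)) + cw n j m

/-- A composition series of `W` with factors `J`. -/
inductive Fac : Submodule k V → Multiset ℕ → Prop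
  | bot : Fac ⊥ 0
  | step {W W' : Submodule k V} {J : Multiset ℕ} {j : ℕ} :
      Fac W J → Step ι ρ W W' j → Fac W' (j ::ₘ J)

end defs

/-- The operators `A r` and `E`. -/
def JobA : Prop := ∀ {F : Type u} [Field F] [Fintype F] {k V : Type} [Field k] [CharP k 2]
  [AddCommGroup V] [Module k V] (ι : F →+* k) (ρ : Representation k SL(2, F) V),
  Fintype.card F ≤ 64 →
  (∀ t, ρ (xx t) = ∑ r ∈ Finset.range (Fintype.card F), ι t ^ r • A ι ρ r) ∧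
  (∀ r s, A ι ρ r * A ι ρ s = if r &&& s = 0 then A ι ρ (r + s) else 0) ∧
  (∀ (s : Fˣ) (r : ℕ), ρ (hh s) * A ι ρ r = ι s ^ (2 * r) • (A ι ρ r * ρ (hh s))) ∧
  A ι ρ (Fintype.card F - 1) = ∑ a : F, ρ (xx a) ∧
  E ρ = A ι ρ (Fintype.card F - 1) +
    ∑ t : F, ρ (xx t) * ρ ww * A ι ρ (Fintype.card F - 1) * ρ ww * ρ (xx t) ∧
  (∀ g, ρ g * E ρ = E ρ * ρ g) ∧ (ww * ww : SL(2, F)) = 1 ∧
  ∀ W, Inv ρ W → ∀ r, ∀ v ∈ W, A ι ρ r v ∈ W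

/-- The simple modules. -/
def JobSim : Prop := ∀ {F : Type u} [Field F] [Fintype F] {k V : Type} [Field k] [CharP k 2]
  [AddCommGroup V] [Module k V] [FiniteDimensional k V] [Nontrivial V] (ι : F →+* k)
  (ρ : Representation k SL(2, F) V), Fintype.card F ≤ 64 → (∀ W, Inv ρ W → W = ⊥ ∨ W = ⊤) →
  ∃ j, Step ι ρ ⊥ ⊤ j

/-- Composition series exist. -/
def JobFac : Prop := ∀ {F : Type u} [Field F] [Fintype F] {k V : Type} [Field k] [CharP k 2]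
  [AddCommGroup V] [Module k V] [FiniteDimensional k V] (ι : F →+* k)
  (ρ : Representation k SL(2, F) V), Fintype.card F ≤ 64 → ∀ W, Inv ρ W → ∃ J, Fac ι ρ W J

/-- Vectors and functionals fixed by the Borel subgroup, away from the Steinberg module. -/
def JobB0 : Prop := ∀ {F : Type u} [Field F] [Fintype F] {k V : Type} [Field k] [CharP k 2]
  [AddCommGroup V] [Module k V] (ι : F →+* k) (ρ : Representation k SL(2, F) V),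
  Fintype.card F ≤ 64 →
  (∀ v : V, (∀ t, ρ (xx t) v = v) → (∀ s, ρ (hh s) v = v) → (∃ n, (E ρ ^ n) v = 0) →
    ∀ g, ρ g v = v) ∧
  (∀ M, Inv ρ M → (∃ n, ∀ v ∈ M, (E ρ ^ n) v = 0) → ∀ φ : Dual k V,
    (∀ t, ∀ v ∈ M, φ (ρ (xx t) v) = φ v) → (∀ s, ∀ v ∈ M, φ (ρ (hh s) v) = φ v) →
    ∀ g, ∀ v ∈ M, φ (ρ g v) = φ v) ∧
  (∀ W W' j, Step ι ρ W W' j → (j ≠ Fintype.card F - 1 → ∀ v ∈ W', E ρ v ∈ W) ∧
    (j = Fintype.card F - 1 → ∀ v ∈ W', E ρ v - v ∈ W)) ∧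
  ∀ M J, Fac ι ρ M J → Fintype.card F - 1 ∉ J → ∃ n, ∀ v ∈ M, (E ρ ^ n) v = 0

/-- Splitting off the Steinberg modules. -/
def JobFit : Prop := ∀ {F : Type u} [Field F] [Fintype F] {k V : Type} [Field k] [CharP k 2]
  [AddCommGroup V] [Module k V] [FiniteDimensional k V] (ι : F →+* k)
  (ρ : Representation k SL(2, F) V), Fintype.card F ≤ 64 →
  ∃ (M S : Submodule k V) (π : End k V) (J : Multiset ℕ) (n : ℕ),
    (∀ v, v ∈ M ↔ ∃ n, (E ρ ^ n) v = 0) ∧ Inv ρ M ∧ Inv ρ S ∧ (∀ v ∈ S, E ρ v = 0 → v = 0) ∧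
    (∀ g, π * ρ g = ρ g * π) ∧ (∀ v, π v ∈ S) ∧ (∀ v, v - π v ∈ M) ∧ (∀ v, π v = 0 ↔ v ∈ M) ∧
    (∀ U : Submodule k V, (∀ v ∈ U, π v ∈ U) →
      finrank k U = finrank k ↥(M ⊓ U) + finrank k ↥(S ⊓ U)) ∧
    Fac ι ρ M J ∧ Fintype.card F - 1 ∉ J ∧
    Fac ι ρ S (Multiset.replicate n (Fintype.card F - 1))

/-- Products of small factors have no Steinberg part. -/
def JobBil : Prop := ∀ {F : Type u} [Field F] [Fintype F] {k V : Type} [Field k] [CharP k 2]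
  [AddCommGroup V] [Module k V] (ι : F →+* k) (ρ : Representation k SL(2, F) V),
  Fintype.card F = 64 → ∀ M J, Fac ι ρ M J → (∀ j ∈ J, (sb j).card ≤ 4) →
  ∀ b : V →ₗ[k] V →ₗ[k] V, (∀ g v w, b (ρ g v) (ρ g w) = ρ g (b v w)) →
  (∀ v, v ∈ Submodule.span k (Set.range fun p : V × V => b p.1 p.2) → E ρ v = 0 → v = 0) →
  ∀ v ∈ M, ∀ w ∈ M, b v w = 0

/-- The refined pressure bound. -/
def JobR : Prop := ∀ {F : Type u} [Field F] [Fintype F] {k V : Type} [Field k] [CharP k 2]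
  [AddCommGroup V] [Module k V] [FiniteDimensional k V] (ι : F →+* k)
  (ρ : Representation k SL(2, F) V) (f : ℕ), f = 4 ∨ f = 6 → Fintype.card F = 2 ^ f →
  ∀ s : Fˣ, orderOf s = 2 ^ f - 1 → ∀ M J, Fac ι ρ M J → 2 ^ f - 1 ∉ J →
  (∀ j ∈ J, ∀ i < f, cw (2 ^ f - 1) j (2 ^ (i + 1)) = 0 ∨ j = 2 ^ ((i + 1) % f)) →
  (∀ v ∈ M, (∀ g, ρ g v = v) → v = 0) →
  (∀ φ : Dual k V, (∀ g, ∀ v ∈ M, φ (ρ g v) = φ v) → ∀ v ∈ M, φ v = 0) →
  finrank k ↥(M ⊓ (fx (ρ (hh s)) ⊓ fx (ρ ww))) + finrank k ↥(M ⊓ fx (ρ (hh s))) ≤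
    ∑ i ∈ Finset.range f, finrank k ↥(M ⊓ End.eigenspace (ρ (hh s)) (ι s ^ 2 ^ (i + 1)))

/-- The pressure bound. -/
def JobP : Prop := ∀ {F : Type u} [Field F] [Fintype F] {k V : Type} [Field k] [CharP k 2]
  [AddCommGroup V] [Module k V] [FiniteDimensional k V] (ι : F →+* k)
  (ρ : Representation k SL(2, F) V) (f : ℕ), f = 4 ∨ f = 6 → Fintype.card F = 2 ^ f →
  ∀ s : Fˣ, orderOf s = 2 ^ f - 1 → ∀ M J, Fac ι ρ M J → 2 ^ f - 1 ∉ J →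
  finrank k ↥(M ⊓ fx (ρ (hh s))) ≤
    finrank k ↥(M ⊓ ρ.invariants) + (J.filter fun j => (sb j).card = 2).card

/-- Dihedral groups of twice odd order. -/
def JobDih : Prop := ∀ {k V : Type} [Field k] [CharP k 2] [AddCommGroup V] [Module k V]
  [FiniteDimensional k V] (h w : End k V) (n : ℕ), Odd n → h ^ n = 1 → w * w = 1 →
  h * w * h = w → 2 * finrank k (fx w) + finrank k (fx h) =
    finrank k V + 2 * finrank k ↥(fx h ⊓ fx w)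

/-! ### `E₈(2)` -/

attribute [local instance] H65.tabE8 H65.commE8

/-- The algebraic closure of the field with two elements. -/
abbrev K2 : Type := AlgebraicClosure (ZMod 2)

/-- The group `E₈(2)`. -/
abbrev G2 : Type := ↥(chevE8.group (ZMod 2))

/-- The adjoint module. -/
abbrev V2 : Type := chevE8.Idx → K2

/-- The adjoint representation. -/
noncomputable abbrev ad2 : Representation K2 G2 V2 := adj chevE8 (ZMod 2)

/-- The matrix over the algebraic closure. -/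
noncomputable abbrev al (g : G2) : GL chevE8.Idx K2 := (H67.toAlg chevE8 (ZMod 2) g).1

/-- The two tori of `SL₂(q)`. -/
def JobY : Prop := ∀ {F : Type u} [Field F] [Fintype F] (f : ℕ), 1 ≤ f → Fintype.card F = 2 ^ f →
  ∃ (ι : F →+* K2) (s : Fˣ) (ζ μ : K2ˣ) (y : SL(2, F)), orderOf s = 2 ^ f - 1 ∧ (ζ : K2) = ι s ∧
    orderOf ζ = 2 ^ f - 1 ∧ orderOf (hh s) = 2 ^ f - 1 ∧ Eig ι (hh s) ζ (ζ⁻¹ : K2ˣ) ∧
    hh s * ww * hh s = ww ∧ orderOf μ = 2 ^ f + 1 ∧ orderOf y = 2 ^ f + 1 ∧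
    Eig ι y μ (μ⁻¹ : K2ˣ) ∧ y * ww * y = ww

def cl63 : List (List ℕ) := [[0, 0, 0, 1, 1, 2, 4, 8], [1, 6, 3, 1, 0, 2, 3, 3],
  [3, 2, 1, 0, 1, 1, 6, 5], [3, 2, 4, 0, 1, 4, 2, 1], [4, 2, 0, 1, 4, 2, 0, 7],
  [6, 0, 2, 0, 1, 3, 7, 0], [6, 3, 2, 1, 2, 1, 1, 0], [7, 4, 1, 0, 2, 3, 0, 0]]

def cl65 : List (List ℕ) := [[0, 8, 1, 2, 1, 1, 4, 2], [1, 0, 0, 1, 1, 2, 4, 8],
  [1, 5, 3, 1, 1, 2, 3, 3], [4, 2, 0, 1, 4, 2, 0, 8], [4, 2, 1, 2, 1, 1, 1, 8],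
  [5, 3, 0, 1, 2, 0, 3, 7]]

def cl15 : List (List ℕ) := [[0, 0, 0, 0, 0, 1, 1, 2], [0, 2, 1, 0, 0, 0, 1, 1],
  [1, 0, 0, 1, 0, 1, 0, 1], [1, 1, 0, 0, 0, 0, 2, 1], [1, 1, 0, 0, 1, 0, 0, 2],
  [2, 0, 0, 0, 0, 1, 2, 0], [2, 1, 0, 0, 1, 0, 0, 0]]

def cl17 : List (List ℕ) := [[0, 1, 1, 0, 1, 0, 1, 1], [1, 0, 0, 0, 0, 1, 1, 2],
  [1, 0, 0, 1, 0, 1, 0, 2], [2, 0, 0, 0, 0, 1, 2, 1]]

/-- The classes of elements of order 63, 65, 15, 17. -/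
def tb2 : List (ℕ × List (List ℕ)) := [(63, cl63), (65, cl65), (15, cl15), (17, cl17)]

/-- The roots take the values of the class `X` on `c`. -/
def Cls (ζ : K2ˣ) (X : List ℕ) (c : Fin chevE8.rank → K2ˣ) : Prop :=
  ∀ r : Rt chevE8, chi chevE8 c r = ζ ^ ∑ i : Fin 8, H43.Alc.rt8 r i * (X.getD i 0 : ℕ)

/-- The alcove computation. -/
def JobAlc : Prop := ∀ n C, (n, C) ∈ tb2 → ∀ (c : Fin chevE8.rank → K2ˣ)
  (w : (H64.wdata chevE8).W) (ζ : K2ˣ), (∀ r, chi chevE8 c (w.1 r) = chi chevE8 c r ^ 2) →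
  orderOf ζ = n → orderOf c = n → ∃ X ∈ C, ∃ u : (H64.wdata chevE8).W,
    ∀ r, chi chevE8 c (u.1 r) = ζ ^ ∑ i : Fin 8, H43.Alc.rt8 r i * (X.getD i 0 : ℕ)

/-- The classes in the group. -/
def JobCl : Prop := ∀ n C, (n, C) ∈ tb2 → ∀ (g : G2) (ζ : K2ˣ), orderOf g = n → orderOf ζ = n →
  ∃ X ∈ C, ∃ z ∈ chevE8.group K2, ∃ c, al g = z * tor chevE8 K2 c * z⁻¹ ∧ c ^ n = 1 ∧ Cls ζ X c ∧
    ∀ m : ℕ, finrank K2 (End.eigenspace (ad2 g) ((ζ : K2) ^ m)) = cnt n X 1 m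

/-- The three feasible characters. -/
def JobNum : Prop := ∀ (J : Multiset ℕ) (n : ℕ), (∀ j ∈ J, j < 63) → ∀ X ∈ cl63, ∀ Y ∈ cl65,
  (∀ m, cnt 63 X 1 m = cJ 63 J m + n * cw 63 63 m) →
  (∀ m, cnt 65 Y 1 m = cJ 65 J m + n * cw 65 63 m) →
  (n ≠ 0 ∧ cJ 65 J 0 = 12 ∧ ∀ j ∈ J, (sb j).card ≤ 4) ∨
  (n = 1 ∧ cJ 65 J 0 = 8 ∧ cJ 63 J 0 = 8 ∧
    (∀ j ∈ J, ∀ i < 6, cw 63 j (2 ^ (i + 1)) = 0 ∨ j = 2 ^ ((i + 1) % 6)) ∧
    ∑ i ∈ Finset.range 6, cJ 63 J (2 ^ (i + 1)) = 12) ∨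
  (n = 0 ∧ cJ 65 J 0 = 12 ∧ cJ 63 J 0 = 12 ∧ (J.filter fun j => (sb j).card = 2).card = 6)

/-- A twisted torus through `c` is larger than the group generated by `c`. -/
def JobExt : Prop := ∀ X ∈ cl65, ∀ (ζ : K2ˣ) (c : Fin chevE8.rank → K2ˣ), orderOf ζ = 65 →
  Cls ζ X c → ∃ (L : List ℕ) (d : Fin chevE8.rank → K2ˣ), c ∈ Tw chevE8 L (frobenius K2 2) ∧
    d ∈ Tw chevE8 L (frobenius K2 2) ∧ d ∉ Subgroup.zpowers c

/-- A rational torus of prescribed type through a semisimple element. -/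
def JobTor : Prop := ∀ (g : G2), ∀ z ∈ chevE8.group K2, ∀ (c : Fin chevE8.rank → K2ˣ) (n : ℕ)
  (L : List ℕ), al g = z * tor chevE8 K2 c * z⁻¹ → n ≠ 0 → c ^ n = 1 →
  c ∈ Tw chevE8 L (frobenius K2 2) → ∃ z' ∈ chevE8.group K2,
    al g = z' * tor chevE8 K2 c * z'⁻¹ ∧ ∀ d ∈ Tw chevE8 L (frobenius K2 2),
      ∃ s : G2, al s = z' * tor chevE8 K2 d * z'⁻¹ ∧ (s ∈ Subgroup.zpowers g → d ∈ Subgroup.zpowers c)

/-- A subspace stable under `g` and under its centraliser in the Lie algebra is stable under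
the tori through `g`. -/
def JobEnd : Prop := ∀ (g : G2), ∀ z ∈ chevE8.group K2, ∀ (c : Fin chevE8.rank → K2ˣ) (n : ℕ),
  al g = z * tor chevE8 K2 c * z⁻¹ → Odd n → c ^ n = 1 → ∀ W : Submodule K2 V2,
  (∀ v ∈ W, ad2 g v ∈ W) → (∀ a ∈ fx (ad2 g), ∀ v ∈ W, B chevE8 K2 a v ∈ W) →
  (fx (ad2 g) ≤ W ∨ ∀ v ∈ W, v ∈ fx (ad2 g) → ∀ a ∈ fx (ad2 g), B chevE8 K2 a v = 0) →
  ∀ (s : G2) (d : Fin chevE8.rank → K2ˣ), al s = z * tor chevE8 K2 d * z⁻¹ →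
    ∀ v ∈ W, ad2 s v ∈ W

/-- Regular elements. -/
def JobReg : Prop := ∀ (g : G2), ∀ z ∈ chevE8.group K2, ∀ (c : Fin chevE8.rank → K2ˣ) (n : ℕ),
  al g = z * tor chevE8 K2 c * z⁻¹ → n ≠ 0 → c ^ n = 1 → finrank K2 (fx (ad2 g)) = 8 →
  (∀ a ∈ fx (ad2 g), ∀ b ∈ fx (ad2 g), B chevE8 K2 a b = 0) ∧
  ∀ u : G2, g * u * g = u → ∀ a ∈ fx (ad2 g), ad2 u a = a

/-- A large subalgebra of a centraliser of type `A₁ A₁ T₆` meets its centre. -/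
def JobZ : Prop := ∀ (g : G2), ∀ z ∈ chevE8.group K2, ∀ (c : Fin chevE8.rank → K2ˣ),
  al g = z * tor chevE8 K2 c * z⁻¹ → finrank K2 (fx (ad2 g)) = 12 → ∀ Y : Submodule K2 V2,
  Y ≤ fx (ad2 g) → (∀ a ∈ Y, ∀ b ∈ Y, B chevE8 K2 a b ∈ Y) → 6 ≤ finrank K2 Y →
  ∃ v ∈ Y, v ≠ 0 ∧ ∀ a ∈ fx (ad2 g), B chevE8 K2 a v = 0

/-- The adjoint module is irreducible. -/
def JobIrr : Prop := ∀ W : Submodule K2 V2, (∀ g : G2, ∀ v ∈ W, ad2 g v ∈ W) → W = ⊥ ∨ W = ⊤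

/-- The group theory. -/
def JobGrp : Prop := ∀ {F : Type u} [Field F] [Fintype F], Fintype.card F = 64 →
  ∀ {G : Type} [Group G] [Finite G] (H : Subgroup G),
  Nonempty (↥(Cfsg.generalizedFittingSubgroup ↥H) ≃* PSL(2, F)) →
  ∃ ψ : SL(2, F) →* G, Function.Injective ψ ∧ ψ.range ≤ H ∧
    (∀ h ∈ H, ∃ α : SL(2, F) ≃* SL(2, F), ∀ g, h * ψ g = ψ (α g) * h) ∧
    ∀ y : SL(2, F), orderOf y = 65 →
      (∀ h ∈ H, h * ψ y = ψ y * h → h ∈ Subgroup.zpowers (ψ y)) ∧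
      ∀ h ∈ H, ∃ (g : SL(2, F)) (i : ℕ), ψ g * h * ψ y = ψ y ^ i * (ψ g * h)

end H40.E82
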