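/- Specification of the tower E7T (row S5935): nine more subgroups of E7(2) on the 56-dimensional
module.  See `blueprints/E7T.md`. -/
import Cfsg.Agent.H40.E7Spec
import Cfsg.Prelude.Def_Classification2

set_option autoImplicit false

namespace H40.E7T

open Module Cfsg H40.E7S

universe u

/-- The part of the module on which an element of order three has no fixed points. -/
def kc (A : End (ZMod 2) V56) : Submodule (ZMod 2) V56 := LinearMap.ker (A ^ 2 + A + 1)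

theorem mem_kc {A : End (ZMod 2) V56} {v : V56} : v ∈ kc A ↔ A (A v) + A v + v = 0 := by
  simp [kc, pow_two]

/-- Exponent vectors. -/
abbrev E4 : Type := Fin 4 → ZMod 3

section grp

variable {G : Type*} [Group G]

/-- The element with exponent vector `v`. -/
def ev (a : Fin 4 → G) (v : E4) : G :=
  a 0 ^ (v 0).val * a 1 ^ (v 1).val * a 2 ^ (v 2).val * a 3 ^ (v 3).val

/-- Four commuting elements whose cubes are trivial. -/
structure El (a : Fin 4 → G) : Prop where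
  comm : ∀ i j, Commute (a i) (a j)
  cube : ∀ i, a i ^ 3 = 1

theorem ev_zero (a : Fin 4 → G) : ev a 0 = 1 := by simp [ev]

theorem ev_single (a : Fin 4 → G) (i : Fin 4) : ev a (Pi.single i 1) = a i := by
  fin_cases i <;> simp [ev, ZMod.val_one]

theorem El.ev_add {a : Fin 4 → G} (h : El a) (v w : E4) : ev a (v + w) = ev a v * ev a w := by
  have k : ∀ i, a i ^ ((v + w) i).val = a i ^ (v i).val * a i ^ (w i).val := fun i => by
    rw [Pi.add_apply, ZMod.val_add, ← pow_add, ← pow_eq_pow_mod _ (h.cube i)]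
  have c : ∀ i j (m n : ℕ), Commute (a i ^ m) (a j ^ n) := fun i j => (h.comm i j).pow_pow
  simp only [ev, k]
  rw [(c 0 1 _ _).mul_mul_mul_comm, ((c 0 2 _ _).mul_left (c 1 2 _ _)).mul_mul_mul_comm,
    (((c 0 3 _ _).mul_left (c 1 3 _ _)).mul_left (c 2 3 _ _)).mul_mul_mul_comm]

theorem El.ev_smul {a : Fin 4 → G} (h : El a) (c : ZMod 3) (v : E4) :
    ev a (c • v) = ev a v ^ c.val := by
  have : ∀ n : ℕ, ev a (n • v) = ev a v ^ n := fun n => by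
    induction n with
    | zero => simp [ev_zero]
    | succ n ih => rw [succ_nsmul, h.ev_add, ih, pow_succ]
  rw [← this, ← Nat.cast_smul_eq_nsmul (ZMod 3), ZMod.natCast_zmod_val]

theorem El.ev_comm {a : Fin 4 → G} (h : El a) (v w : E4) : Commute (ev a v) (ev a w) := by
  rw [commute_iff_eq, ← h.ev_add, ← h.ev_add, add_comm]

theorem El.ev_cube {a : Fin 4 → G} (h : El a) (v : E4) : ev a v ^ 3 = 1 := by
  rw [pow_three, ← h.ev_add, ← h.ev_add, show v + (v + v) = 0 by revert v; decide, ev_zero]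

/-- A matrix (given by the images of the basis vectors) applied to a vector. -/
def act (M : Fin 4 → E4) (v : E4) : E4 := ∑ i, v i • M i

theorem El.sub {a : Fin 4 → G} (h : El a) (M : Fin 4 → E4) : El fun i => ev a (M i) :=
  ⟨fun _ _ => h.ev_comm _ _, fun _ => h.ev_cube _⟩

theorem El.ev_act {a : Fin 4 → G} (h : El a) (M : Fin 4 → E4) (v : E4) :
    ev a (act M v) = ev (fun i => ev a (M i)) v := by
  simp only [act, Fin.sum_univ_four, h.ev_add, h.ev_smul]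
  rfl

theorem El.ev_conj {a : Fin 4 → G} (h : El a) {g : G} {M : Fin 4 → E4}
    (hg : ∀ i, g * a i * g⁻¹ = ev a (M i)) (v : E4) : g * ev a v * g⁻¹ = ev a (act M v) := by
  rw [h.ev_act, ← funext hg]
  simp only [ev, conj_pow, conj_mul]

theorem El.isConj_fold {a : Fin 4 → G} (h : El a) (L : List (Fin 4 → E4))
    (hL : ∀ M ∈ L, ∃ g : G, ∀ i, g * a i * g⁻¹ = ev a (M i)) (v : E4) :
    IsConj (ev a v) (ev a (L.foldl (fun v M => act M v) v)) := by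
  induction L generalizing v with
  | nil => exact IsConj.refl _
  | cons M L ih =>
    obtain ⟨g, hg⟩ := hL M List.mem_cons_self
    exact (isConj_iff.2 ⟨g, h.ev_conj hg v⟩).trans (ih (fun N hN => hL N (List.mem_cons_of_mem _ hN)) _)

/-- An elementary abelian group of order 81 and its fusion. -/
structure Cls (a : Fin 4 → G) (c : E4 → ℕ) : Prop where
  el : El a
  ord : ∀ v, v ≠ 0 → orderOf (ev a v) = 3
  cj : ∀ v w, v ≠ 0 → w ≠ 0 → c v = c w → IsConj (ev a v) (ev a w)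

/-- The common fixed space. -/
def fix4 (ρ : Representation (ZMod 2) G V56) (a : Fin 4 → G) : Submodule (ZMod 2) V56 :=
  kf (ρ (a 0)) ⊓ kf (ρ (a 1)) ⊓ kf (ρ (a 2)) ⊓ kf (ρ (a 3))

/-- An element of order nine acts nontrivially on the fixed space of its cube. -/
def Nine (ρ : Representation (ZMod 2) G V56) : Prop :=
  ∀ h : G, orderOf h = 9 → ¬ kf (ρ (h ^ 3)) ≤ kf (ρ h)

/-- The Borel subgroup `3³ : 13` of `L₂(27)` and the Weyl element. -/
structure C27 (a : Fin 4 → G) (t s : G) : Prop where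
  el : El a
  a3 : a 3 = 1
  o0 : orderOf (a 0) = 3
  t0 : t * a 0 * t⁻¹ = a 1
  t1 : t * a 1 * t⁻¹ = a 2
  t2 : t * a 2 * t⁻¹ = a 0 * a 1
  ot : t ^ 13 = 1
  os : s ^ 2 = 1
  st : s * t * s⁻¹ = t⁻¹
  sa : (s * a 0) ^ 3 = 1
  gen : Subgroup.closure {a 0, t, s} = ⊤

/-- The number of nonzero exponents. -/
def cA (v : E4) : ℕ := (Finset.univ.filter fun i => v i ≠ 0).card

/-- The quadratic form of minus type. -/
def cU (v : E4) : ℕ := (v 0 * v 3 - v 1 ^ 2 - v 2 ^ 2).val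

/-- The classes of `G₂(3)` (coordinates: roots `3a+2b`, `3a+b`, `2a+b`, `a+b`). -/
def cG (v : E4) : ℕ :=
  if v 2 = 0 ∧ v 3 = 0 then 0 else if v 0 = 0 ∧ v 1 = 0 then 1 else
    if v 1 = 0 ∨ v 3 = 0 then 2 else if v 1 = v 3 then 3 else 4

variable (G)

/-- `L₂(27)`. -/
def Cfg27 : Prop := ∃ (a : Fin 4 → G) (t s : G), C27 a t s

/-- `A₁₃`. -/
def CfgA : Prop :=
  ∃ a : Fin 4 → G, Cls a cA ∧
    (∀ v ∈ ({![1, 0, 0, 0], ![1, 1, 0, 0], ![1, 1, 1, 1]} : Set E4),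
      ∃ t y : G, IsConj t (ev a v) ∧ orderOf y = 5 ∧ (t * y) ^ 2 = 1) ∧
    ∃ x y : G, IsConj x (ev a ![1, 1, 0, 0]) ∧ IsConj y (ev a ![1, 1, 1, 1]) ∧
      (x * y) ^ 13 = 1 ∧ Subgroup.closure {x, y} = ⊤

/-- `U₄(3)`. -/
def CfgU4 : Prop :=
  ∃ (a : Fin 4 → G) (k c g : G) (w : E4), Cls a cU ∧ Commute k (a 0) ∧ c * a 0 * c⁻¹ = ev a w ∧
    g = k * a 1 * k⁻¹ * (c * (k * a 1 * k⁻¹) * c⁻¹) ∧ orderOf g = 5 ∧
    ∀ i ∈ ({1, 2, 3, 4} : Set ℕ), ∃ v : E4, v 3 ≠ 0 ∧ g ^ i * a 0 * (g ^ i)⁻¹ = ev a v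

/-- `O₇(3)`. -/
def CfgO : Prop :=
  ∃ (z : G) (x y : Fin 3 → G), orderOf z = 3 ∧ IsConj (x 0) z ∧ (∀ i, x i ^ 3 = 1) ∧
    (∀ i, Commute z (x i)) ∧ (∀ i, Commute z (y i)) ∧ (∀ i, y i * x i * (y i)⁻¹ = x i * z) ∧
    ∀ i j, i < j → Commute (x i) (x j) ∧ Commute (x i) (y j)

/-- `G₂(3)`. -/
def CfgG3 : Prop := ∃ a : Fin 4 → G, Cls a cG

/-- `J₂`. -/
def CfgJ : Prop :=
  ∃ a b c y z w : G, C15 z c y w ∧ orderOf a = 3 ∧ a * b = b * a * c ∧ Commute c a ∧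
    Commute c b ∧ IsConj b a ∧ IsConj (a * b) a ∧ IsConj (a ^ 2 * b) a ∧ (a * z) ^ 2 = 1

/-- `G₂(8)`: the subgroup `9² : 3` of `SU₃(8)` and an element of `SU₃(2)`. -/
def CfgG8 : Prop :=
  ∃ a b s k : G, Commute a b ∧ a ^ 9 = 1 ∧ s ^ 3 = 1 ∧ s * a * s⁻¹ = b ∧ s * b * s⁻¹ = (a * b)⁻¹ ∧
    orderOf (a * b⁻¹) = 9 ∧ Commute k ((a * b⁻¹) ^ 3) ∧ k * a ^ 3 * k⁻¹ = s

end grp

/-- The sum of the dimensions of the fixed spaces over `3⁴` and over its subgroups. -/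
def JobSum : Prop :=
  ∀ (G : Type u) [Group G] (ρ : Representation (ZMod 2) G V56) (a : Fin 4 → G), El a →
    ∑ v : E4, fd ρ (ev a v) = 27 * (56 + 2 * dm (fix4 ρ a)) ∧
    ∀ M : Fin 4 → E4, ∃ f, dm (fix4 ρ a) ≤ f ∧ ∑ v : E4, fd ρ (ev a (act M v)) = 27 * (56 + 2 * f)

/-- Counting orbits of vectors. -/
def JobCong : Prop :=
  ∀ (M : Submodule (ZMod 2) V56) (A : End (ZMod 2) V56), (∀ v ∈ M, A v ∈ M) →
    (∀ p : ℕ, p.Prime → (∀ v ∈ M, (A ^ p) v = v) → 2 ^ dm M ≡ 2 ^ dm (M ⊓ kf A) [MOD p]) ∧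
    ((∀ v ∈ M, (A ^ 9) v = v) → M ⊓ kf (A ^ 3) = ⊥ → 6 ∣ dm M)

/-- Splitting under elements of order three. -/
def JobSplit : Prop :=
  (∀ Z : End (ZMod 2) V56, kf Z ⊓ kc Z = ⊥) ∧
  (∀ (M : Submodule (ZMod 2) V56) (Z : End (ZMod 2) V56), (∀ v ∈ M, Z v ∈ M) →
    (∀ v ∈ M, (Z ^ 3) v = v) → dm (M ⊓ kf Z) + dm (M ⊓ kc Z) = dm M) ∧
  ∀ (M : Submodule (ZMod 2) V56) (Z X Y : End (ZMod 2) V56), (∀ v ∈ M, Z v ∈ M) →
    (∀ v ∈ M, X v ∈ M) → (∀ v ∈ M, Y v ∈ M) → M ≤ kc Z → (∀ v ∈ M, (X ^ 3) v = v) →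
    (∀ v ∈ M, Z (X v) = X (Z v)) → Function.Injective Y → (∀ v ∈ M, Y (Z v) = Z (Y v)) →
    (∀ v ∈ M, Y (X v) = X (Z (Y v))) → dm M = 3 * dm (M ⊓ kf X)

/-- The number of weights with a given value. -/
noncomputable def cn (a : Fin 7 → ZMod 9) (r : ZMod 9) : ℕ :=
  (Finset.univ.filter fun j : Fin 56 => ∑ k, a k * (H26.E7.wt k j : ZMod 9) = r).card

/-- The weights of elements of order nine of the torus. -/
def JobW9 : Prop :=
  ∀ a : Fin 7 → ZMod 9, cn a 1 = cn a 2 → cn a 2 = cn a 4 → cn a 3 = 0 → cn a 6 = 0 → cn a 0 = 56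

/-- The 56-dimensional module again. -/
def JobRep9 : Prop :=
  ∃ ρ : Representation (ZMod 2) (Lie.chevE7.group (ZMod 2)) V56, Good ρ ∧ Nine ρ

def JobM27 : Prop :=
  ∀ (G : Type u) [Group G] (ρ : Representation (ZMod 2) G V56), Good ρ → Cfg27 G → HasFix ρ

def JobMA : Prop :=
  ∀ (G : Type u) [Group G] (ρ : Representation (ZMod 2) G V56), Good ρ → CfgA G → HasFix ρ

def JobMU : Prop :=
  ∀ (G : Type u) [Group G] (ρ : Representation (ZMod 2) G V56), Good ρ → ¬ CfgU4 G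

def JobMO : Prop :=
  ∀ (G : Type u) [Group G] (ρ : Representation (ZMod 2) G V56), Good ρ → ¬ CfgO G

def JobMG3 : Prop :=
  ∀ (G : Type u) [Group G] (ρ : Representation (ZMod 2) G V56), Good ρ → ¬ CfgG3 G

def JobMJ : Prop :=
  ∀ (G : Type u) [Group G] (ρ : Representation (ZMod 2) G V56), Good ρ → ¬ CfgJ G

def JobMG8 : Prop :=
  ∀ (G : Type u) [Group G] (ρ : Representation (ZMod 2) G V56), Good ρ → Nine ρ → ¬ CfgG8 G

def JobC19 : Prop :=
  ∀ (F : Type u) [Field F] [Fintype F], Fintype.card F = 19 →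
    Cfg255 (Matrix.ProjectiveSpecialLinearGroup (Fin 2) F)

def JobC27 : Prop :=
  ∀ (F : Type u) [Field F] [Fintype F], Fintype.card F = 27 →
    Cfg27 (Matrix.ProjectiveSpecialLinearGroup (Fin 2) F)

def JobCL4 : Prop := Cfg255 (Matrix.ProjectiveSpecialLinearGroup (Fin 4) (ZMod 3))

def JobCU4 : Prop :=
  ∀ (F : Type u) [Field F] [Fintype F], Fintype.card F = 9 → CfgU4 (PSU 4 F 3)

def JobCO : Prop := CfgO (Omega (ZMod 3) (quadFormOdd 3 (ZMod 3)))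

def JobCG3 : Prop := CfgG3 (Lie.chevG2.group (ZMod 3))

def JobCA : Prop := CfgA (alternatingGroup (Fin 13))

def JobCJ : Prop := CfgJ Spor.J2

def JobCG8 : Prop :=
  ∀ (F : Type u) [Field F] [Fintype F], Fintype.card F = 8 → CfgG8 (Lie.chevG2.group F)

end H40.E7T
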