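import Cfsg.Agent.H40.CSSpec
import Cfsg.Agent.S4160

set_option autoImplicit false
open Cfsg

namespace H40.CS
universe u

theorem core (hB : JobB.{u}) (hU : JobU.{u}) (hV : JobV.{u}) (hN : JobN.{u}) (hS : JobS.{u})
    (hA : JobA.{u}) (hI : JobI.{u}) (hAl : JobAl.{u}) (hBe : JobBe.{u})
    (G : Type u) [Group G] [Finite G] (p q : ℕ) (h : Hyp G p q) (hc : HasNormalPComplement p G) : False := by
  have cU : ConcU.{u} := hU hB
  have cV : ConcV.{u} := hV cU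
  have cN : ConcN.{u} := hN hB cV
  have cS : ConcS.{u} := hS hB
  obtain ⟨hp, b, s, hs, hsp, hb, hpb⟩ := hA hB cN G p q h hc
  by_cases h1 : ∀ a : G, IsPrim p a → ¬ q ∣ cs a
  · exact hI hB cN G p q h hp b s hs hb hpb h1
  push Not at h1
  obtain ⟨a, ha, hqa⟩ := h1
  by_cases h2 : ∀ x : G, ¬ s ∣ orderOf x → ¬ p ∣ cs x
  · exact hBe hB cV G p q h hc hp b s hs hsp hb hpb a ha hqa h2
  push Not at h2
  obtain ⟨x, hsx, hpx⟩ := h2
  refine hAl hB cS G p q h hp b s hs hb hpb a ha hqa ?_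
  have hsa : s ∣ cs a := by
    by_contra hsa
    have hso : ¬ s ∣ orderOf a := by
      obtain ⟨k, hk⟩ := ha
      rw [hk]
      intro hd
      exact hsp ((Nat.prime_dvd_prime_iff_eq hs h.hp).1 (hs.dvd_of_dvd_pow hd))
    obtain ⟨y, hay, hby⟩ := (hB G).f5 s hs a b hsa hso hb
    have hcop := h.cop b y hpb (hqa.trans hay)
    have : p ∣ Nat.gcd (cs b) (cs y) := Nat.dvd_gcd hpb (hpb.trans hby)
    rw [hcop] at this
    exact h.hp.one_lt.ne' (Nat.dvd_one.1 this)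
  have hsx' : ¬ s ∣ cs x := by
    intro hd
    have hcop := h.cop x a hpx hqa
    have : s ∣ Nat.gcd (cs x) (cs a) := Nat.dvd_gcd hd hsa
    rw [hcop] at this
    exact hs.one_lt.ne' (Nat.dvd_one.1 this)
  intro d hd
  obtain ⟨y, hxy, hdy⟩ := (hB G).f5 s hs x d hsx' hsx hd
  exact ⟨y, hpx.trans hxy, hdy⟩

theorem top (hB : JobB.{u}) (hU : JobU.{u}) (hV : JobV.{u}) (hN : JobN.{u}) (hS : JobS.{u})
    (hA : JobA.{u}) (hI : JobI.{u}) (hAl : JobAl.{u}) (hBe : JobBe.{u})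
    {G : Type u} [Group G] [Finite G] (hG : ¬ Group.IsSolvable G)
    (p q : ℕ) (hp : p.Prime) (hq : q.Prime) (hpq : p ≠ q)
    (hp' : ∃ x : G, p ∣ (Subgroup.centralizer ({x} : Set G)).index)
    (hq' : ∃ x : G, q ∣ (Subgroup.centralizer ({x} : Set G)).index) :
    (∃ x : G, p * q ∣ (Subgroup.centralizer ({x} : Set G)).index) ∨ ∃ r : ℕ, r.Prime ∧ r ≠ p ∧ r ≠ q ∧
      (∃ x : G, p * r ∣ (Subgroup.centralizer ({x} : Set G)).index) ∧
      (∃ y : G, r * q ∣ (Subgroup.centralizer ({y} : Set G)).index) := by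
  by_contra hcon
  rw [not_or] at hcon
  obtain ⟨h1, h2⟩ := hcon
  have h1' : ∀ x : G, ¬ p * q ∣ (Subgroup.centralizer ({x} : Set G)).index := fun x hx => h1 ⟨x, hx⟩
  have hcpq : p.Coprime q := (Nat.coprime_primes hp hq).2 hpq
  have h : Hyp G p q := by
    refine ⟨hp, hq, hpq, hG, hp', hq', fun x y hx hy => ?_⟩
    apply Nat.Coprime.symm
    rw [Nat.coprime_comm]
    apply Nat.coprime_of_dvd
    intro r hr hrx hry
    by_cases hrp : r = p
    · subst hrp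
      exact h1' y (hcpq.mul_dvd_of_dvd_of_dvd hry hy)
    by_cases hrq : r = q
    · subst hrq
      exact h1' x (hcpq.mul_dvd_of_dvd_of_dvd hx hrx)
    exact h2 ⟨r, hr, hrp, hrq,
      ⟨x, ((Nat.coprime_primes hp hr).2 (Ne.symm hrp)).mul_dvd_of_dvd_of_dvd hx hrx⟩,
      ⟨y, ((Nat.coprime_primes hr hq).2 hrq).mul_dvd_of_dvd_of_dvd hry hy⟩⟩
  rcases Cfsg.Agent.S4160.result p q hp hq hpq hp' hq' h1' with hc | hc
  · exact core hB hU hV hN hS hA hI hAl hBe G p q h hc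
  · exact core hB hU hV hN hS hA hI hAl hBe G q p h.symm hc

end H40.CS
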