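import Cfsg.Agent.H40.CSSpec

set_option autoImplicit false
open Cfsg

namespace H40.CSU
universe u
open H40.CS

theorem cnt {G : Type u} [Group G] [Fintype G] (U C : Subgroup G) [U.Normal] [DecidablePred (· ∈ U)] [DecidablePred (· ∈ C)] :
    U.index * ((Finset.univ.filter (fun g : G => g ∉ U)).filter (fun g => g ∈ C)).card + Nat.card C ≤ U.index * Nat.card C ∧
    (C = ⊤ → U.index * ((Finset.univ.filter (fun g : G => g ∉ U))).card + Nat.card G = U.index * Nat.card G) := by
  classical
  have h1 : ((Finset.univ.filter (fun g : G => g ∉ U)).filter (fun g => g ∈ C)).card + Nat.card (U ⊓ C : Subgroup G) = Nat.card C := by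
    have e1 : Nat.card C = (Finset.univ.filter (fun g : G => g ∈ C)).card := by
      rw [Nat.card_eq_fintype_card, Fintype.card_subtype]
    have e2 : Nat.card (U ⊓ C : Subgroup G) = ((Finset.univ.filter (fun g : G => g ∈ C)).filter (fun g => g ∈ U)).card := by
      rw [Nat.card_eq_fintype_card, Fintype.card_subtype, Finset.filter_filter]
      congr 1; ext g; simp [and_comm]
    rw [e1, e2, ← Finset.card_filter_add_card_filter_not (s := Finset.univ.filter (fun g : G => g ∈ C)) (fun g => g ∈ U), add_comm]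
    congr 1
    rw [Finset.filter_filter, Finset.filter_filter]
    congr 1; ext g; simp [and_comm]
  have h2 : Nat.card (U ⊓ C : Subgroup G) * U.relIndex C = Nat.card C := by
    have := (U.subgroupOf C).card_mul_index
    rw [← this]
    congr 1
    rw [← Subgroup.inf_subgroupOf_right]
    exact (Nat.card_congr (Subgroup.subgroupOfEquivOfLe (inf_le_right : U ⊓ C ≤ C)).toEquiv).symm
  have h3 : U.relIndex C ≤ U.index :=
    Nat.le_of_dvd (Nat.pos_of_ne_zero Subgroup.index_ne_zero_of_finite) (Subgroup.relIndex_dvd_index_of_normal U C)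
  refine ⟨?_, ?_⟩
  · have : Nat.card C ≤ U.index * Nat.card (U ⊓ C : Subgroup G) := by
      rw [← h2, mul_comm]; exact Nat.mul_le_mul_right _ h3
    calc _ ≤ U.index * ((Finset.univ.filter (fun g : G => g ∉ U)).filter (fun g => g ∈ C)).card + U.index * Nat.card (U ⊓ C : Subgroup G) := by omega
      _ = _ := by rw [← mul_add, h1]
  · intro hC
    subst hC
    have e : ((Finset.univ.filter (fun g : G => g ∉ U)).filter (fun g => g ∈ (⊤ : Subgroup G))) = Finset.univ.filter (fun g : G => g ∉ U) := by
      ext g; simp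
    rw [e, inf_top_eq, Subgroup.card_top] at h1
    have := U.index_mul_card
    calc _ = U.index * ((Finset.univ.filter (fun g : G => g ∉ U))).card + U.index * Nat.card U := by rw [this]
      _ = _ := by rw [← mul_add, h1]

theorem job : JobU.{u} := by
  intro hB G _ _ s hs U hU hne h
  classical
  have := Fact.mk hs
  have := Fintype.ofFinite G
  have : Fintype (Sylow s G) := Fintype.ofFinite _
  set A := Finset.univ.filter (fun g : G => g ∉ U) with hA
  let C : Sylow s G → Subgroup G := fun T => Subgroup.centralizer ((T : Subgroup G) : Set G)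
  let N : Sylow s G → Subgroup G := fun T => Subgroup.normalizer ((T : Subgroup G) : Set G)
  have hf : ∀ g : G, ¬ s ∣ cs g ↔ ∃ T : Sylow s G, g ∈ C T := by
    intro g
    rw [(hB G).f3 s g]
    refine exists_congr fun T => ?_
    simp only [C, Subgroup.mem_centralizer_iff]
    exact ⟨fun hh t ht => (hh t ht).eq, fun hh t ht => hh t ht⟩
  have hCN : ∀ T, C T ≤ N T := fun T => Subgroup.centralizer_le_normalizer _
  have hsumN : ∑ T : Sylow s G, Nat.card (N T) = Nat.card G := by
    have hn : 0 < Nat.card (Sylow s G) := Nat.card_pos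
    apply Nat.eq_of_mul_eq_mul_left hn
    rw [Finset.mul_sum]
    have : ∀ T : Sylow s G, Nat.card (Sylow s G) * Nat.card (N T) = Nat.card G := by
      intro T
      rw [T.card_eq_index_normalizer]
      exact Subgroup.index_mul_card _
    rw [Finset.sum_congr rfl (fun T _ => this T), Finset.sum_const, Finset.card_univ, smul_eq_mul, ← Nat.card_eq_fintype_card]
  have hdc : ∑ T : Sylow s G, (A.filter (fun g => g ∈ C T)).card = ∑ g ∈ A, (Finset.univ.filter (fun T : Sylow s G => g ∈ C T)).card := by
    simp only [Finset.card_filter]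
    exact Finset.sum_comm
  have hge : ∀ g ∈ A, 1 ≤ (Finset.univ.filter (fun T : Sylow s G => g ∈ C T)).card := by
    intro g hg
    obtain ⟨T, hT⟩ := (hf g).1 (h g (by simpa [hA] using hg))
    exact Finset.card_pos.2 ⟨T, by simpa using hT⟩
  have hle : ∀ T ∈ (Finset.univ : Finset (Sylow s G)), Nat.card (C T) ≤ Nat.card (N T) :=
    fun T _ => Subgroup.card_le_of_le (hCN T)
  have s1 : ∑ g ∈ A, 1 ≤ ∑ g ∈ A, (Finset.univ.filter (fun T : Sylow s G => g ∈ C T)).card := Finset.sum_le_sum hge
  have s2 : ∑ T : Sylow s G, Nat.card (C T) ≤ ∑ T : Sylow s G, Nat.card (N T) := Finset.sum_le_sum hle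
  have s3 : U.index * (∑ T : Sylow s G, (A.filter (fun g => g ∈ C T)).card) + ∑ T : Sylow s G, Nat.card (C T) ≤
      U.index * ∑ T : Sylow s G, Nat.card (C T) := by
    rw [Finset.mul_sum, Finset.mul_sum, ← Finset.sum_add_distrib]
    exact Finset.sum_le_sum fun T _ => (cnt U (C T)).1
  have s4 := (cnt U ⊤).2 rfl
  have hm : 2 ≤ U.index := by
    have h0 : U.index ≠ 0 := Subgroup.index_ne_zero_of_finite
    have h1 : U.index ≠ 1 := fun e => hne (Subgroup.index_eq_one.1 e)
    omega
  rw [hdc] at s3
  rw [← hA] at s4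
  have s1' : A.card ≤ ∑ g ∈ A, (Finset.univ.filter (fun T : Sylow s G => g ∈ C T)).card := by simpa using s1
  rw [hsumN] at s2
  obtain ⟨m, hm'⟩ : ∃ m, U.index = m + 2 := ⟨U.index - 2, by omega⟩
  rw [hm'] at s3 s4
  set a := A.card
  set k := ∑ g ∈ A, (Finset.univ.filter (fun T : Sylow s G => g ∈ C T)).card with hk
  set c := ∑ T : Sylow s G, Nat.card (C T) with hc
  set n := Nat.card G
  have e1 : c = n := by nlinarith
  have e2 : k = a := by nlinarith
  have eC : ∀ T, C T = N T := by
    intro T
    have := (Finset.sum_eq_sum_iff_of_le hle).1 (by rw [hsumN]; exact e1) T (Finset.mem_univ _)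
    exact Subgroup.eq_of_le_of_card_ge (hCN T) this.ge
  have eK : ∀ g ∈ A, 1 = (Finset.univ.filter (fun T : Sylow s G => g ∈ C T)).card :=
    (Finset.sum_eq_sum_iff_of_le hge).1 (by rw [← hk, e2]; simp [a])
  refine ⟨?_, fun g hg x hx => ?_⟩
  · let T : Sylow s G := default
    have hT : Subgroup.normalizer ((T : Subgroup G) : Set G) ≤ Subgroup.centralizer ((T : Subgroup G) : Set G) := (eC T).ge
    exact ⟨T, _, inferInstance, MonoidHom.ker_transferSylow_isComplement' T hT⟩
  · obtain ⟨T, hT⟩ := (hf g).1 (h g hg)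
    have hgA : g ∈ A := by simpa [hA] using hg
    obtain ⟨T0, hT0⟩ := Finset.card_eq_one.1 (eK g hgA).symm
    have huniq : ∀ T1 : Sylow s G, g ∈ C T1 → T1 = T0 := by
      intro T1 h1
      have : T1 ∈ Finset.univ.filter (fun T : Sylow s G => g ∈ C T) := by simpa using h1
      rw [hT0] at this
      simpa using this
    have hxT : g ∈ C (x • T) := by
      simp only [C, Subgroup.mem_centralizer_iff] at hT ⊢
      intro t ht
      have ht' : x⁻¹ * t * x ∈ (T : Subgroup G) := by
        have h5 : t ∈ ((x • T : Sylow s G) : Subgroup G) := ht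
        rw [Sylow.coe_subgroup_smul, Subgroup.mem_pointwise_smul_iff_inv_smul_mem] at h5
        simpa using h5
      have := hT _ ht'
      have hx' : g * x = x * g := hx.eq
      calc t * g = x * ((x⁻¹ * t * x) * g) * x⁻¹ * (x * g⁻¹ * x⁻¹ * g) := by group
        _ = x * (g * (x⁻¹ * t * x)) * x⁻¹ * (x * g⁻¹ * x⁻¹ * g) := by rw [this]
        _ = (x * g) * x⁻¹ * t * (x * g⁻¹ * x⁻¹ * g) := by group
        _ = g * t := by
          have h2 : x * g⁻¹ * x⁻¹ * g = 1 := by
            rw [mul_assoc, mul_assoc, ← mul_assoc g⁻¹, ← mul_inv_rev, ← hx', mul_inv_rev]; group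
          rw [h2, ← hx']; group
    have : x • T = T := (huniq _ hxT).trans (huniq _ hT).symm
    have hxN : x ∈ N T := Sylow.smul_eq_iff_mem_normalizer.1 this
    rw [← eC T] at hxN
    exact (hf x).2 ⟨T, hxN⟩

end H40.CSU
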