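/- Tower E82: the assembly. -/
import Cfsg.Agent.H40.E82Spec
import Cfsg.Agent.H62.E8Form

set_option autoImplicit false
set_option linter.unusedSectionVars false

namespace H40.E82

open Cfsg Cfsg.Lie H63 H64 H65 H46 H14.E8 Matrix Module H40.E8F H56.SL2M
open scoped MatrixGroups Classical

universe u

section Mod
variable {F : Type u} [Field F] [Fintype F] {k V : Type} [Field k] [AddCommGroup V] [Module k V]
  {ι : F →+* k} {ρ : Representation k SL(2, F) V}

theorem Fac.dim {W : Submodule k V} {J : Multiset ℕ} (h : Fac ι ρ W J) {y : SL(2, F)} {μ : kˣ}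
    {n : ℕ} (he : Eig ι y μ (μ⁻¹ : kˣ)) (ho : orderOf μ = n) (hn : Odd n) (hy : y ^ n = 1) (m : ℕ) :
    finrank k ↥(W ⊓ End.eigenspace (ρ y) ((μ : k) ^ m)) = cJ n J m := by
  induction h with
  | bot => rw [bot_inf_eq, finrank_bot]; rfl
  | step _ hs ih =>
    obtain ⟨-, -, -, -, z, -, -, -, -, -, -, h⟩ := hs
    rw [h y μ n he ho hn hy m, ih, cJ, cJ, Multiset.map_cons, Multiset.sum_cons, add_comm]

theorem Fac.lt {W : Submodule k V} {J : Multiset ℕ} (h : Fac ι ρ W J) :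
    ∀ j ∈ J, j < Fintype.card F := by
  induction h with
  | bot => simp
  | step _ hs ih => exact fun j hj => (Multiset.mem_cons.1 hj).elim (· ▸ hs.1) (ih j)

theorem cJ_replicate (n a j m : ℕ) : cJ n (Multiset.replicate a j) m = a * cw n j m := by
  rw [cJ, Multiset.map_replicate, Multiset.sum_replicate, smul_eq_mul]

theorem mem_fx {f : End k V} {v : V} : v ∈ fx f ↔ f v = v := by
  rw [End.mem_eigenspace_iff, one_smul]

theorem E_comm {T : End k V} (α : SL(2, F) ≃* SL(2, F)) (h : ∀ g, T * ρ g = ρ (α g) * T) :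
    T * E ρ = E ρ * T := by
  rw [E, Finset.mul_sum, Finset.sum_mul]
  refine Finset.sum_equiv α.toEquiv (fun g => ?_) fun g _ => h g
  simp only [Finset.mem_filter, Finset.mem_univ, true_and, MulEquiv.toEquiv_eq_coe,
    EquivLike.coe_coe, ← map_mul, EmbeddingLike.map_eq_one_iff]

/-- The stabiliser of a subspace. -/
def stab {G : Type} [Group G] [Finite G] (σ : Representation k G V) (W : Submodule k V) :
    Subgroup G where
  carrier := {g | ∀ v ∈ W, σ g v ∈ W}
  one_mem' := fun v hv => by simpa using hv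
  mul_mem' := fun ha hb v hv => by rw [map_mul]; exact ha _ (hb v hv)
  inv_mem' := fun {g} hg => by
    obtain ⟨n, hn⟩ := mem_powers_iff_mem_zpowers.2 (inv_mem (Subgroup.mem_zpowers g))
    rw [← hn]
    induction n with
    | zero => exact fun v hv => by simpa using hv
    | succ n _ =>
      have : ∀ m : ℕ, ∀ v ∈ W, σ (g ^ m) v ∈ W := fun m => by
        induction m with
        | zero => exact fun v hv => by simpa using hv
        | succ m ih => exact fun v hv => by rw [pow_succ, map_mul]; exact ih _ (hg v hv)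
      exact this _

end Mod

theorem adj_eq {D : ChevalleyDatum} [RS D] [Tab D] [Comm D] (g : D.group (ZMod 2))
    (v : D.Idx → K2) : H56.SL2M.adj D (ZMod 2) g v = act (H67.toAlg D (ZMod 2) g).1 v :=
  Matrix.toLin'_apply _ _

theorem adj_B {D : ChevalleyDatum} [RS D] [Tab D] [Comm D] (g : D.group (ZMod 2))
    (v w : D.Idx → K2) : B D K2 (adj D (ZMod 2) g v) (adj D (ZMod 2) g w) =
      adj D (ZMod 2) g (B D K2 v w) := by
  rw [adj_eq, adj_eq, adj_eq]
  exact (isAut_of_mem (H67.toAlg D (ZMod 2) g).2 v w).symm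

attribute [local instance] H65.tabE8 H65.commE8

theorem finrank_V2 : finrank K2 V2 = 248 := by
  rw [Module.finrank_fintype_fun_eq_card, Fintype.card_sum, Fintype.card_fin, Fintype.card_fin]
  rfl

theorem form2 : ∃ β : V2 →ₗ[K2] V2 →ₗ[K2] K2, (∀ v, (∀ w, β v w = 0) → v = 0) ∧
    ∀ (g : G2) (v w : V2), β (ad2 g v) (ad2 g w) = β v w :=
  ⟨H62.E8Form.β chevE8 K2, fun _ h => H62.E8Form.sep H62.E8Form.cinv_spec h, fun g v w => by
    rw [adj_eq, adj_eq]
    exact H62.E8Form.inv_group H62.E8Form.len_E8' (H67.toAlg chevE8 (ZMod 2) g).2 v w⟩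

theorem exists_inv {k V G : Type*} [Field k] [AddCommGroup V] [Module k V] [FiniteDimensional k V]
    [Group G] (ρ : Representation k G V) (β : V →ₗ[k] V →ₗ[k] k)
    (h1 : ∀ v, (∀ w, β v w = 0) → v = 0) (h2 : ∀ g v w, β (ρ g v) (ρ g w) = β v w)
    {φ : Dual k V} (h3 : φ ≠ 0) (h4 : ∀ g v, φ (ρ g v) = φ v) : ∃ v ≠ 0, ∀ g, ρ g v = v := by
  have inj : Function.Injective β := (injective_iff_map_eq_zero _).2 fun v hv =>
    h1 v fun w => by rw [hv]; rfl
  obtain ⟨v, rfl⟩ := (LinearMap.injective_iff_surjective_of_finrank_eq_finrank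
    (Subspace.dual_finrank_eq (K := k) (V := V)).symm).1 inj φ
  refine ⟨v, fun e => h3 (by rw [e, map_zero]), fun g => inj (LinearMap.ext fun w => ?_)⟩
  have e : w = ρ g (ρ g⁻¹ w) := by rw [← End.mul_apply, ← map_mul, mul_inv_cancel, map_one]; rfl
  exact (congrArg (β (ρ g v)) e).trans ((h2 g v _).trans (h4 _ _))

theorem fin (hE : JobExt) (hT : JobTor) (hN : JobEnd) (hI : JobIrr) {H : Subgroup G2}
    (hH : IsCoatom H) {x : G2} (hx : x ∈ H) (hC : ∀ h ∈ H, h * x = x * h → h ∈ Subgroup.zpowers x)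
    {X : List ℕ} (hX : X ∈ cl65) {ζ : K2ˣ} (hζ : orderOf ζ = 65) {z : GL chevE8.Idx K2}
    (hz : z ∈ chevE8.group K2) {c : Fin chevE8.rank → K2ˣ}
    (e : al x = z * tor chevE8 K2 c * z⁻¹) (hc : c ^ 65 = 1) (hcl : Cls ζ X c)
    {W : Submodule K2 V2} (h0 : W ≠ ⊥) (h1 : W ≠ ⊤) (h2 : ∀ h ∈ H, ∀ v ∈ W, ad2 h v ∈ W)
    (h3 : ∀ a ∈ fx (ad2 x), ∀ v ∈ W, B chevE8 K2 a v ∈ W)
    (h4 : fx (ad2 x) ≤ W ∨ ∀ v ∈ W, v ∈ fx (ad2 x) → ∀ a ∈ fx (ad2 x), B chevE8 K2 a v = 0) :
    False := by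
  obtain ⟨L, d, h5, h6, h7⟩ := hE X hX ζ c hζ hcl
  obtain ⟨z', h8, h9, h10⟩ := hT x z hz c 65 L e (by norm_num) hc h5
  obtain ⟨s, h11, h12⟩ := h10 d h6
  have h13 : s ∈ stab ad2 W := hN x z' h8 c 65 h9 (by decide) hc W (h2 x hx) h3 h4 s d h11
  have h14 : s ∉ H := fun hs => h7 (h12 (hC s hs (mapG_injective (algebraMap (ZMod 2) K2)
    (Subtype.ext (by
      rw [map_mul, map_mul, Subgroup.coe_mul, Subgroup.coe_mul]
      change al s * al x = al x * al s
      rw [h11, h9]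
      simp only [mul_assoc, inv_mul_cancel_left]
      rw [← mul_assoc (tor _ _ d), ← mul_assoc (tor _ _ c), ← map_mul, ← map_mul, mul_comm d])))))
  have h15 : stab ad2 W = ⊤ := hH.2 _ (lt_of_le_of_ne h2 fun e => h14 (e ▸ h13))
  exact (hI W fun g => (h15 ▸ Subgroup.mem_top g : g ∈ stab ad2 W)).elim h0 h1

theorem cw_a : cw 65 63 0 = 0 := by decide +kernel

theorem cw_b : cw 63 63 0 = 2 := by decide +kernel

theorem main (hA : JobA.{u}) (hF : JobFit.{u}) (hB : JobBil.{u}) (hR : JobR.{u}) (hP : JobP.{u})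
    (hD : JobDih) (hY : JobY.{u}) (hCl : JobCl) (hNum : JobNum) (hE : JobExt) (hT : JobTor)
    (hN : JobEnd) (hRg : JobReg) (hZ : JobZ) (hI : JobIrr) (hG : JobGrp.{u})
    {F : Type u} [Field F] [Fintype F] (hq : Fintype.card F = 64) (H : Subgroup G2)
    (h : Nonempty (↥(generalizedFittingSubgroup ↥H) ≃* PSL(2, F))) : ¬ IsCoatom H := by
  intro hH
  obtain ⟨ψ, g1, g2, g3, g4⟩ := hG hq H h
  obtain ⟨ι, s, ζ, μ, y, y1, y2, y3, y4, y5, y6, y7, y8, y9, y10⟩ := hY 6 (by norm_num) hq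
  norm_num only at y1 y3 y4 y7 y8
  obtain ⟨g4, g5⟩ := g4 y y8
  have hx : ψ y ∈ H := g2 ⟨y, rfl⟩
  let ρ : Representation K2 SL(2, F) V2 := ad2.comp ψ
  have hρ : ∀ g, ρ g = ad2 (ψ g) := fun _ => rfl
  obtain ⟨X, hX, -, -, -, -, -, -, dX⟩ := hCl 63 cl63 (by decide) (ψ (hh s)) ζ
    ((orderOf_injective ψ g1 _).trans y4) y3
  obtain ⟨Y, hY', z, hz, c, e, hc, hcl, dY⟩ := hCl 65 cl65 (by decide) (ψ y) μ
    ((orderOf_injective ψ g1 _).trans y8) y7
  obtain ⟨M, S, π, J, n, f1, f2, f3, f4, f5, f6, f7, f8, f9, f10, f11, f12⟩ := hF ι ρ hq.le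
  rw [hq] at f11 f12
  norm_num only at f11 f12
  have eig : ∀ (g : SL(2, F)) (a : K2), ∀ v ∈ End.eigenspace (ρ g) a,
      π v ∈ End.eigenspace (ρ g) a := fun g a v hv => by
    rw [End.mem_eigenspace_iff] at hv ⊢
    rw [← End.mul_apply, ← f5, End.mul_apply, hv, map_smul]
  have p63 : hh s ^ 63 = 1 := y4 ▸ pow_orderOf_eq_one _
  have p65 : y ^ 65 = 1 := y8 ▸ pow_orderOf_eq_one _
  have a63 := f10.dim y5 y3 (by decide) p63
  have b63 := fun m => (f12.dim y5 y3 (by decide) p63 m).trans (cJ_replicate ..)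
  have a65 := f10.dim y9 y7 (by decide) p65
  have b65 := fun m => (f12.dim y9 y7 (by decide) p65 m).trans (cJ_replicate ..)
  have c63 := fun m => f9 _ (eig (hh s) ((ζ : K2) ^ m))
  have c65 := fun m => f9 _ (eig y ((μ : K2) ^ m))
  have num := hNum J n (fun j hj => by
    have := f10.lt j hj
    have : j ≠ 63 := fun e => f11 (e ▸ hj)
    omega) X hX Y hY' (fun m => by rw [← dX, ← a63, ← b63]; exact c63 m)
    (fun m => by rw [← dY, ← a65, ← b65]; exact c65 m)
  have d65 : finrank K2 (fx (ρ y)) = cJ 65 J 0 := by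
    have := c65 0
    rwa [a65, b65, cw_a, mul_zero, add_zero, pow_zero] at this
  have d63 : finrank K2 (fx (ρ (hh s))) = cJ 63 J 0 + n * 2 := by
    have := c63 0
    rwa [a63, b63, cw_b, pow_zero] at this
  have m63 : finrank K2 ↥(M ⊓ fx (ρ (hh s))) = cJ 63 J 0 := by
    have := a63 0
    rwa [pow_zero] at this
  have s63 : finrank K2 ↥(S ⊓ fx (ρ (hh s))) = n * 2 := by
    have := b63 0
    rwa [pow_zero, cw_b] at this
  have inv : ∀ h ∈ H, ∀ v ∈ ρ.invariants, ad2 h v ∈ ρ.invariants := fun h hh v hv g => by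
    obtain ⟨α, hα⟩ := g3 h hh
    obtain ⟨g, rfl⟩ := α.surjective g
    rw [hρ, ← End.mul_apply, ← map_mul, ← hα, map_mul, End.mul_apply, ← hρ, hv g]
  -- a fixed vector in the centre of the centraliser
  have cen : finrank K2 (fx (ρ y)) ≠ 248 → ∀ v ∈ ρ.invariants, v ≠ 0 →
      (∀ a ∈ fx (ρ y), B chevE8 K2 a v = 0) → False := fun hd v hv h0 hv' => by
    let W : Submodule K2 V2 := ρ.invariants ⊓ ⨅ a ∈ fx (ρ y), LinearMap.ker (B chevE8 K2 a)
    have hW : ∀ v, v ∈ W ↔ v ∈ ρ.invariants ∧ ∀ a ∈ fx (ρ y), B chevE8 K2 a v = 0 := fun v => by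
      simp only [W, Submodule.mem_inf, Submodule.mem_iInf, LinearMap.mem_ker]
    refine fin hE hT hN hI hH hx g4 hY' y7 hz e hc hcl (W := W)
      (fun e => h0 ((Submodule.mem_bot _).1 (e ▸ (hW v).2 ⟨hv, hv'⟩))) (fun e => hd ?_)
      (fun h hh v hv => (hW _).2 ⟨inv h hh v ((hW v).1 hv).1, fun a ha => ?_⟩)
      (fun a ha v hv => ((hW v).1 hv).2 a ha ▸ W.zero_mem)
      (.inr fun v hv _ => ((hW v).1 hv).2)
    · have : fx (ρ y) = ⊤ := eq_top_iff.2 fun v _ =>
        mem_fx.2 (((hW v).1 (e ▸ Submodule.mem_top)).1 y)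
      rw [this, finrank_top, finrank_V2]
    · obtain ⟨g, i, hi⟩ := g5 h hh
      have e1 : ad2 h v = ad2 (ψ g * h) v := by
        rw [map_mul, End.mul_apply]
        exact (inv h hh v ((hW v).1 hv).1 g).symm
      have e2 : a = ad2 (ψ g * h) (ad2 (ψ g * h)⁻¹ a) := by
        rw [← End.mul_apply, ← map_mul, mul_inv_cancel, map_one]; rfl
      have e3 : ∀ i : ℕ, ad2 (ψ y ^ i) a = a := fun i => by
        induction i with
        | zero => rw [pow_zero, map_one]; rfl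
        | succ i ih => rw [pow_succ, map_mul, End.mul_apply, ← hρ, mem_fx.1 ha, ih]
      rw [e1, e2, adj_B, ((hW v).1 hv).2 _ (mem_fx.2 ?_), map_zero]
      rw [hρ, ← End.mul_apply, ← map_mul,
        show ψ y * (ψ g * h)⁻¹ = (ψ g * h)⁻¹ * ψ y ^ i by
          rw [eq_inv_mul_iff_mul_eq, ← mul_assoc, hi, mul_inv_cancel_right],
        map_mul, End.mul_apply, e3]
  rcases num with ⟨n1, n2, n3⟩ | ⟨rfl, n2, n3, n4, n5⟩ | ⟨rfl, n2, n3, n4⟩
  · have le : fx (ρ y) ≤ M := by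
      have := a65 0
      rw [pow_zero, ← d65] at this
      exact inf_eq_right.1 (Submodule.eq_of_le_of_finrank_eq inf_le_right this)
    refine fin hE hT hN hI hH hx g4 hY' y7 hz e hc hcl (W := M) (fun e => ?_) (fun e => ?_)
      (fun h hh v hv => ?_) (fun a ha v hv => (f8 _).1 ?_) (.inl le)
    · rw [e, le_bot_iff] at le
      rw [le, finrank_bot] at d65
      omega
    · have := f9 _ (eig (hh s) 1)
      rw [e, top_inf_eq] at this
      change finrank K2 (fx (ρ (hh s))) = finrank K2 (fx (ρ (hh s))) +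
        finrank K2 ↥(S ⊓ fx (ρ (hh s))) at this
      omega
    · obtain ⟨α, hα⟩ := g3 h hh
      obtain ⟨m, hm⟩ := (f1 v).1 hv
      have : Commute (ad2 h) (E ρ) := E_comm α fun g => by
        rw [hρ, hρ, ← map_mul, ← map_mul, hα]
      exact (f1 _).2 ⟨m, by rw [← End.mul_apply, ← (this.pow_right m).eq, End.mul_apply, hm,
        map_zero]⟩
    · refine hB ι ρ hq M J f10 n3 ((B chevE8 K2).compr₂ π) (fun g v w => ?_)
        (fun v hv => f4 v (Submodule.span_le.2 ?_ hv)) a (le ha) v hv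
      · rw [LinearMap.compr₂_apply, LinearMap.compr₂_apply, hρ, adj_B, ← hρ, ← End.mul_apply, f5,
          End.mul_apply]
      · rintro _ ⟨p, rfl⟩
        exact f6 _
  · obtain ⟨r1, r2⟩ := hRg (ψ y) z hz c 65 e (by norm_num) hc (d65.trans n2)
    have w2 : ρ ww * ρ ww = 1 := by rw [← map_mul, (hA ι ρ hq.le).2.2.2.2.2.2.1, map_one]
    have k1 := hD (ρ y) (ρ ww) 65 (by decide) (by rw [← map_pow, p65, map_one]) w2
      (by rw [← map_mul, ← map_mul, y10])
    have k2 := hD (ρ (hh s)) (ρ ww) 63 (by decide) (by rw [← map_pow, p63, map_one]) w2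
      (by rw [← map_mul, ← map_mul, y6])
    rw [inf_eq_left.2 fun a ha => mem_fx.2 (r2 (ψ ww) (by rw [← map_mul, ← map_mul, y10]) a ha),
      finrank_V2] at k1
    rw [finrank_V2] at k2
    have k3 := f9 (fx (ρ (hh s)) ⊓ fx (ρ ww)) fun v hv => ⟨eig _ _ v hv.1, eig _ _ v hv.2⟩
    have k4 : finrank K2 ↥(S ⊓ (fx (ρ (hh s)) ⊓ fx (ρ ww))) ≤ finrank K2 ↥(S ⊓ fx (ρ (hh s))) :=
      Submodule.finrank_mono (inf_le_inf_left _ inf_le_left)
    obtain ⟨v, h0, hv⟩ : ∃ v ≠ 0, ∀ g, ρ g v = v := by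
      by_contra! hn
      have k5 := hR ι ρ 6 (.inr rfl) hq s y1 M J f10 f11 n4
        (fun v _ hv => by_contra fun h0 => (hn v h0).elim fun g hg => hg (hv g))
        (fun φ hφ v hv => by_contra fun h0 => by
          obtain ⟨β, b1, b2⟩ := form2
          obtain ⟨u, u1, u2⟩ := exists_inv ρ β b1 (fun g => b2 (ψ g)) (φ := φ ∘ₗ (1 - π))
            (fun e => h0 (by simpa [(f8 v).2 hv] using LinearMap.congr_fun e v)) fun g v => by
              have := hφ g _ (f7 v)
              rwa [map_sub, ← End.mul_apply _ π, ← f5] at this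
          exact (hn u u1).elim fun g hg => hg (u2 g))
      rw [← y2, Finset.sum_congr rfl fun i _ => a63 (2 ^ (i + 1)), n5] at k5
      omega
    exact cen (by omega) v hv h0 fun a ha => r1 a ha v (mem_fx.2 (hv y))
  · have k1 := hP ι ρ 6 (.inr rfl) hq s y1 M J f10 f11
    have k2 : finrank K2 ↥(M ⊓ ρ.invariants) ≤ finrank K2 ρ.invariants :=
      Submodule.finrank_mono inf_le_right
    obtain ⟨v, h1, h2, h3⟩ := hZ (ψ y) z hz c e (d65.trans n2) ρ.invariants
      (fun v hv => mem_fx.2 (hv y)) (fun a ha b hb g => by rw [hρ, ← adj_B, ← hρ, ha g, hb g])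
      (by omega)
    exact cen (by omega) v h1 h2 h3

end H40.E82
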