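/- Tower E8G: the traces of the 2-elements of `Sp₆(2)`. -/
import Cfsg.Agent.H14.E8Val

set_option autoImplicit false

namespace H40.E8G.SpA

open H14.E8

theorem arith : ∀ t1 ∈ [(24 : ℤ), -8], ∀ t2 ∈ [24, -8], ∀ t3 ∈ [(24 : ℤ), -8], ∀ t4 ∈ [24, -8],
    ∀ p6 ∈ L4, p6.2 = t2 → ∀ p9 ∈ L4, p9.2 = t2 →
    ∀ a ∈ [248 - t1 + 9 * t2 - 8 * t3 - t4 + 2 * p6.1 - 2 * p9.1], a % 32 = 0 → 0 ≤ a →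
    ∀ p5 ∈ L4, p5.2 = t4 → ∀ p7 ∈ L4, p7.2 = t4 → ∀ p8 ∈ L4, p8.2 = t4 →
    ∀ b ∈ [248 + 7 * t1 + 19 * t2 + 52 * t3 + 33 * t4 + 24 * p5.1 + 36 * p6.1 + 24 * p7.1 +
      48 * p8.1 + 12 * p9.1], b % 256 = 0 →
    ∀ c ∈ [248 + 3 * t1 + 27 * t2 + 36 * t3 + 29 * t4 + 8 * p5.1 + 84 * p6.1 + 8 * p7.1 +
      48 * p8.1 + 12 * p9.1], c % 256 = 0 →
    ∀ p10 ∈ L8, p10.2.1 = p6.1 → ∀ p11 ∈ L8, p11.2.1 = p9.1 →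
    ∀ d ∈ [248 + 7 * t1 + 27 * t2 + 68 * t3 + 41 * t4 + 40 * p5.1 + 92 * p6.1 + 40 * p7.1 +
      112 * p8.1 + 20 * p9.1 + 32 * p10.1 + 32 * p11.1], d % 512 = 0 → 0 ≤ d → d ≤ 2 * b →
      d ≤ 2 * c →
    ∀ e ∈ [248 + 3 * t1 + 19 * t2 + 4 * t3 + 5 * t4 + 24 * p5.1 + 12 * p6.1 - 8 * p7.1 -
      48 * p8.1 - 12 * p9.1 + 32 * p10.1 - 32 * p11.1], e % 512 = 0 → 0 ≤ e →
    ∀ f ∈ [248 - t1 - 5 * t2 + 4 * t3 - 15 * t4 + 8 * p5.1 + 12 * p6.1 + 8 * p7.1 +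
      48 * p8.1 + 4 * p9.1 - 32 * p10.1 - 32 * p11.1], f % 512 = 0 → 0 ≤ f →
    2 * b + c < 2 * d := by
  decide +kernel

end H40.E8G.SpA
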