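/- Tower FB (S3404): case A, degrees 11 and 13. -/
import Cfsg.Agent.H11.FBSpec
import Cfsg.Agent.S0713

set_option autoImplicit false
set_option linter.unusedSectionVars false

namespace H40.FBSM

open MulAction Subgroup H11.FB Equiv

universe u v

variable {G : Type u} {Ω : Type v} [Group G] [Finite G] [Fintype Ω] [DecidableEq Ω]
  [MulAction G Ω] [FaithfulSMul G Ω] {a b c d : Ω} {K H : Subgroup G} {t : G}

theorem mem_supp {g : G} {ω : Ω} : ω ∈ (toPermHom G Ω g).support ↔ g • ω ≠ ω := by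
  rw [Perm.mem_support]; rfl

theorem inj : Function.Injective (toPermHom G Ω) := MulAction.toPerm_injective

theorem perm_ext4 {α : Type*} {σ τ : Perm α} (e f g k : α) (h1 : σ e = τ e) (h2 : σ f = τ f)
    (h3 : σ g = τ g) (h4 : σ k = τ k) (h : ∀ ω, ω ≠ e → ω ≠ f → ω ≠ g → ω ≠ k → σ ω = τ ω) :
    σ = τ := by
  ext ω
  by_cases e1 : ω = e
  · rw [e1, h1]
  by_cases e2 : ω = f
  · rw [e2, h2]
  by_cases e3 : ω = g
  · rw [e3, h3]
  by_cases e4 : ω = k
  · rw [e4, h4]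
  exact h ω e1 e2 e3 e4

theorem sw_sq {α : Type*} [DecidableEq α] {e f g k : α} (ef : e ≠ f) (eg : e ≠ g) (ek : e ≠ k)
    (fg : f ≠ g) (fk : f ≠ k) (gk : g ≠ k) :
    swap e f * swap g k * (swap e f * swap g k) = 1 := by
  have := ef.symm
  have := eg.symm
  have := ek.symm
  have := fg.symm
  have := fk.symm
  have := gk.symm
  refine perm_ext4 e f g k ?_ ?_ ?_ ?_ fun ω h1 h2 h3 h4 => ?_ <;>
    simp [swap_apply_of_ne_of_ne, *]

theorem sw_comm {α : Type*} [DecidableEq α] {e f g k : α} (ef : e ≠ f) (eg : e ≠ g) (ek : e ≠ k)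
    (fg : f ≠ g) (fk : f ≠ k) (gk : g ≠ k) :
    swap e f * swap g k * (swap e g * swap f k) = swap e g * swap f k * (swap e f * swap g k) := by
  have := ef.symm
  have := eg.symm
  have := ek.symm
  have := fg.symm
  have := fk.symm
  have := gk.symm
  refine perm_ext4 e f g k ?_ ?_ ?_ ?_ fun ω h1 h2 h3 h4 => ?_ <;>
    simp [swap_apply_of_ne_of_ne, *]

/-- the image does not contain the alternating group -/
theorem not_alt (hy : Hy a b c d K H) (ea : Ea (L4 G a b c d) K H t) (hn : 8 ≤ Fintype.card Ω) :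
    ¬ alternatingGroup Ω ≤ (toPermHom G Ω).range := by
  intro h
  have h1 : 3 < (Finset.univ \ ({a, b, c, d} : Finset Ω)).card := by
    have := Finset.le_card_sdiff ({a, b, c, d} : Finset Ω) Finset.univ
    have := Finset.card_le_four (a := a) (b := b) (c := c) (d := d)
    rw [Finset.card_univ] at *
    omega
  obtain ⟨e, f, g, k, he, hf, hg, hk, ef, eg, ek, fg, fk, gk⟩ := Finset.three_lt_card_iff.1 h1
  simp only [Finset.mem_sdiff, Finset.mem_univ, Finset.mem_insert, Finset.mem_singleton, true_and,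
    not_or] at he hf hg hk
  have key : ∀ e f g k : Ω, (¬ e = a ∧ ¬ e = b ∧ ¬ e = c ∧ ¬ e = d) →
      (¬ f = a ∧ ¬ f = b ∧ ¬ f = c ∧ ¬ f = d) → (¬ g = a ∧ ¬ g = b ∧ ¬ g = c ∧ ¬ g = d) →
      (¬ k = a ∧ ¬ k = b ∧ ¬ k = c ∧ ¬ k = d) → e ≠ f → e ≠ g → e ≠ k → f ≠ g → f ≠ k → g ≠ k →
      ∃ x ∈ L4 G a b c d, x ≠ 1 ∧ x * x = 1 ∧ toPermHom G Ω x = swap e f * swap g k := by
    intro e f g k he hf hg hk ef eg ek fg fk gk
    obtain ⟨x, hx⟩ := h (show swap e f * swap g k ∈ alternatingGroup Ω by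
      simp [Perm.mem_alternatingGroup, ef, gk])
    have hs : ∀ ω, x • ω = swap e f (swap g k ω) := fun ω => congrArg (fun σ : Perm Ω => σ ω) hx
    have hfix : ∀ ω, ¬ e = ω → ¬ f = ω → ¬ g = ω → ¬ k = ω → x • ω = ω := fun ω h1 h2 h3 h4 => by
      rw [hs, swap_apply_of_ne_of_ne (Ne.symm h3) (Ne.symm h4),
        swap_apply_of_ne_of_ne (Ne.symm h1) (Ne.symm h2)]
    refine ⟨x, mem_L4.2 ⟨hfix _ he.1 hf.1 hg.1 hk.1, hfix _ he.2.1 hf.2.1 hg.2.1 hk.2.1,
      hfix _ he.2.2.1 hf.2.2.1 hg.2.2.1 hk.2.2.1, hfix _ he.2.2.2 hf.2.2.2 hg.2.2.2 hk.2.2.2⟩,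
      fun e1 => ?_, inj (Ω := Ω) ?_, hx⟩
    · have := hs e
      rw [e1, one_smul, swap_apply_of_ne_of_ne eg ek, swap_apply_left] at this
      exact ef this
    · rw [map_mul, map_one, hx, sw_sq ef eg ek fg fk gk]
  obtain ⟨x, hx, x1, x2, ex⟩ := key e f g k he hf hg hk ef eg ek fg fk gk
  obtain ⟨y, hy', y1, y2, ey⟩ := key e g f k he hg hf hk eg ef ek fg.symm gk fk
  have hc : x * y = y * x := inj (Ω := Ω) (by
    rw [map_mul, map_mul, ex, ey, sw_comm ef eg ek fg fk gk])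
  have h2 := ea.hf x hx y hy' x1 x2 y1 y2 hc
  have h3 := congrArg (fun σ : Perm Ω => σ e) (ex.symm.trans (h2 ▸ ey))
  simp only [Perm.mul_apply] at h3
  rw [swap_apply_of_ne_of_ne eg ek, swap_apply_of_ne_of_ne ef ek, swap_apply_left,
    swap_apply_left] at h3
  exact fg h3

/-- no short prime cycle -/
theorem no_cycle (hy : Hy a b c d K H) (ea : Ea (L4 G a b c d) K H t) (hn : 8 ≤ Fintype.card Ω)
    {y : G} {p : ℕ} (hp : p.Prime) (hpn : p + 3 ≤ Fintype.card Ω)
    (hc : (toPermHom G Ω y).IsCycle) (hs : (toPermHom G Ω y).support.card = p) : False := by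
  refine not_alt hy ea hn (Cfsg.Agent.S0713.result _ ?_ hp (by omega) hpn hc hs ⟨y, rfl⟩)
  have := hy.four
  have h2 : IsMultiplyPretransitive G Ω 2 :=
    isMultiplyPretransitive_of_le (n := 4) (by norm_num) (by rw [Nat.card_eq_fintype_card]; omega)
  refine isPreprimitive_of_is_two_pretransitive (is_two_pretransitive_iff.2 fun h h' => ?_)
  obtain ⟨g, e⟩ := is_two_pretransitive_iff.1 h2 h h'
  exact ⟨⟨toPermHom G Ω g, g, rfl⟩, e⟩

/-- the centraliser of `t` is 4-transitive on the fixed points of `t` -/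
theorem cent4 (hy : Hy a b c d K H) (ea : Ea (L4 G a b c d) K H t) {x y z w : Ω} (h : D4 x y z w)
    (hx : t • x = x) (hy' : t • y = y) (hz : t • z = z) (hw : t • w = w) :
    ∃ g ∈ centralizer ({t} : Set G), g • a = x ∧ g • b = y ∧ g • c = z ∧ g • d = w := by
  obtain ⟨g, rfl, rfl, rfl, rfl⟩ := hy.exists_smul hy.ne h
  obtain ⟨k, hk, e⟩ := ea.cjt (g⁻¹ * t * g)
    (mem_L4.2 ⟨conj_smul_iff.2 hx, conj_smul_iff.2 hy', conj_smul_iff.2 hz, conj_smul_iff.2 hw⟩)
    (fun e => ea.ne (by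
      calc t = g * (g⁻¹ * t * g) * g⁻¹ := by group
        _ = 1 := by rw [e]; group))
    (by
      calc _ = g⁻¹ * (t * t) * g := by group
        _ = 1 := by rw [ea.sq]; group)
  obtain ⟨h1, h2, h3, h4⟩ := mem_L4.1 (inv_mem (hy.fr.Kle hk))
  refine ⟨g * k⁻¹, mem_centralizer_singleton_iff.2 ?_, by rw [mul_smul, h1], by rw [mul_smul, h2],
    by rw [mul_smul, h3], by rw [mul_smul, h4]⟩
  conv_lhs => rw [← e]
  group

theorem fix_smul {g : G} (hg : g * t = t * g) {ω : Ω} : t • g • ω = g • ω ↔ t • ω = ω := by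
  rw [← mul_smul, ← hg, mul_smul, smul_left_cancel_iff]

/-- an element of odd prime order centralising `t` fixes the points moved by `t` -/
theorem fix_of_small {y : G} {p : ℕ} (hp : p.Prime) (hp2 : p ≠ 2) (ht : t * t = 1)
    (hyp : y ^ p = 1) (hc : y * t = t * y) (hs : (toPermHom G Ω t).support.card < 2 * p) {ω : Ω}
    (hω : t • ω ≠ ω) : y • ω = ω := by
  have hc' : Commute y t := hc
  have hu : ∀ i : ℕ, (y * t) ^ i * t = t * (y * t) ^ i := fun i =>
    ((hc'.mul_left (Commute.refl t)).pow_left i).eq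
  obtain ⟨m, hm0, hm, e⟩ : ∃ m, 0 < m ∧ m < 2 * p ∧ (y * t) ^ m • ω = ω := by
    obtain ⟨i, hi, j, hj, hij, e⟩ := Finset.exists_ne_map_eq_of_card_lt_of_maps_to
      (s := Finset.range (2 * p)) (t := (toPermHom G Ω t).support) (by simpa using hs)
      (f := fun i => (y * t) ^ i • ω) fun i _ =>
        Finset.mem_coe.2 (mem_supp.2 fun e => hω ((fix_smul (hu i)).1 e))
    rw [Finset.mem_range] at hi hj
    have key : ∀ i j : ℕ, i < j → (y * t) ^ i • ω = (y * t) ^ j • ω → (y * t) ^ (j - i) • ω = ω := by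
      intro i j h e
      obtain ⟨m, rfl⟩ := Nat.exists_eq_add_of_le h.le
      rw [pow_add, mul_smul, smul_left_cancel_iff] at e
      rw [Nat.add_sub_cancel_left, ← e]
    rcases lt_or_gt_of_ne hij with h | h
    · exact ⟨j - i, by omega, by omega, key i j h e⟩
    · exact ⟨i - j, by omega, by omega, key j i h e.symm⟩
  obtain ⟨q, hq⟩ := hp.odd_of_ne_two hp2
  have t2 : t ^ 2 = 1 := by rw [pow_two, ht]
  have h1 : period (y * t) ω ∣ 2 * p := pow_smul_eq_iff_period_dvd.1 (by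
    rw [hc'.mul_pow, pow_mul' y, hyp, pow_mul t, t2, one_pow, one_pow, one_mul, one_smul])
  have h2 := Nat.le_of_dvd hm0 (pow_smul_eq_iff_period_dvd.1 e)
  have h3 : ¬ period (y * t) ω ∣ p := fun h => hω (by
    have := pow_smul_eq_iff_period_dvd.2 h
    rwa [hc'.mul_pow, hyp, one_mul, hq, pow_succ, pow_mul, t2, one_pow, one_mul] at this)
  have h4 : period (y * t) ω ∣ 2 := by
    obtain ⟨k1, k2, h5, h6, h7⟩ := (Nat.dvd_mul).1 h1
    rcases (Nat.dvd_prime hp).1 h6 with rfl | rfl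
    · rw [← h7, mul_one]; exact h5
    · rcases (Nat.dvd_prime Nat.prime_two).1 h5 with rfl | rfl
      · exact absurd (by rw [← h7, one_mul]) h3
      · omega
  have h5 := pow_smul_eq_iff_period_dvd.2 h4
  rw [hc'.mul_pow, t2, mul_one] at h5
  have h6 : (y ^ 2) ^ (q + 1) • ω = ω := (mem_stabilizer_iff.1
    (pow_mem (mem_stabilizer_iff.2 h5) (q + 1)))
  rwa [← pow_mul, show 2 * (q + 1) = p + 1 by omega, pow_succ, hyp, one_mul] at h6

theorem odd_case (hy : Hy a b c d K H) (ea : Ea (L4 G a b c d) K H t) (hn : 8 ≤ Fintype.card Ω)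
    {p : ℕ} (hp : p.Prime) (hp2 : p ≠ 2) (hpn : p + 3 ≤ Fintype.card Ω)
    (hs : (toPermHom G Ω t).support.card < 2 * p)
    (hs' : Fintype.card Ω - (toPermHom G Ω t).support.card < 2 * p)
    {M : Subgroup G} (hM : M ≤ centralizer ({t} : Set G)) (hd : p ∣ Nat.card M) : False := by
  have := Fact.mk hp
  obtain ⟨y, hy1⟩ := exists_prime_orderOf_dvd_card' (G := M) p hd
  have ho : orderOf (y : G) = p := by rw [Subgroup.orderOf_coe, hy1]
  have hc : (y : G) * t = t * y := mem_centralizer_singleton_iff.1 (hM y.2)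
  have ho' : orderOf (toPermHom G Ω y) = p := by rw [orderOf_injective _ inj, ho]
  have h1 : (toPermHom G Ω y).support ⊆ (toPermHom G Ω t).supportᶜ := fun ω hω =>
    Finset.mem_compl.2 fun h => mem_supp.1 hω
      (fix_of_small hp hp2 ea.sq (ho ▸ pow_orderOf_eq_one _) hc hs (mem_supp.1 h))
  have h2 := Finset.card_le_card h1
  rw [Finset.card_compl] at h2
  have h3 : (toPermHom G Ω y).IsCycle := Perm.isCycle_of_prime_order (ho' ▸ hp) (by omega)
  exact no_cycle hy ea hn hp hpn h3 (h3.orderOf.symm.trans ho')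

theorem dvd_of_orbit (M : Subgroup G) (x : Ω) (S : Finset Ω)
    (h : ∀ ω, ω ∈ S ↔ ∃ g ∈ M, g • x = ω) : S.card ∣ Nat.card M := by
  have h1 : orbit M x = (S : Set Ω) := by
    ext ω
    rw [Finset.mem_coe, h]
    exact ⟨fun ⟨g, e⟩ => ⟨g, g.2, e⟩, fun ⟨g, hg, e⟩ => ⟨⟨g, hg⟩, e⟩⟩
  rw [← Set.ncard_coe_finset, ← h1, ← index_stabilizer]
  exact index_dvd_card _

theorem jobSM : JobSM.{u, v} := by
  intro G Ω _ _ _ _ _ _ a b c d K H t hy ea hn
  have hn8 : 8 ≤ Fintype.card Ω := by omega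
  obtain ⟨ta, tb, tc, td⟩ := mem_L4.1 (hy.fr.Hle ea.mem)
  obtain ⟨ab, ac, ad, bc, bd, cd⟩ := hy.ne
  have hS : ∀ ω, ω ∈ (toPermHom G Ω t).supportᶜ ↔ t • ω = ω := fun ω => by
    rw [Finset.mem_compl, mem_supp, not_not]
  have h2 : 2 ∣ (toPermHom G Ω t).support.card :=
    Perm.two_dvd_card_support (by rw [← map_pow, pow_two, ea.sq, map_one])
  have h0 : (toPermHom G Ω t).support.card ≠ 0 := fun e =>
    ea.ne (inj (Ω := Ω) ((Perm.card_support_eq_zero.1 e).trans (map_one _).symm))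
  have h4 : 3 < (toPermHom G Ω t).supportᶜ.card := Finset.three_lt_card_iff.2
    ⟨a, b, c, d, (hS _).2 ta, (hS _).2 tb, (hS _).2 tc, (hS _).2 td, ab, ac, ad, bc, bd, cd⟩
  have d1 : (toPermHom G Ω t).supportᶜ.card ∣ Nat.card (centralizer ({t} : Set G)) := by
    refine dvd_of_orbit _ a _ fun ω => (hS ω).trans ⟨fun h => ?_, ?_⟩
    · by_cases e1 : ω = b
      · obtain ⟨g, hg, e, -⟩ := cent4 hy ea (show D4 b a c d from ⟨ab.symm, bc, bd, ac, ad, cd⟩)
          tb ta tc td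
        exact ⟨g, hg, e1 ▸ e⟩
      by_cases e2 : ω = c
      · obtain ⟨g, hg, e, -⟩ := cent4 hy ea
          (show D4 c a b d from ⟨ac.symm, bc.symm, cd, ab, ad, bd⟩) tc ta tb td
        exact ⟨g, hg, e2 ▸ e⟩
      by_cases e3 : ω = d
      · obtain ⟨g, hg, e, -⟩ := cent4 hy ea
          (show D4 d a b c from ⟨ad.symm, bd.symm, cd.symm, ab, ac, bc⟩) td ta tb tc
        exact ⟨g, hg, e3 ▸ e⟩
      obtain ⟨g, hg, e, -⟩ := cent4 hy ea (show D4 ω b c d from ⟨e1, e2, e3, bc, bd, cd⟩)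
        h tb tc td
      exact ⟨g, hg, e⟩
    · rintro ⟨g, hg, rfl⟩
      exact (fix_smul (mem_centralizer_singleton_iff.1 hg)).2 ta
  have d2 : (((toPermHom G Ω t).supportᶜ.erase a).erase b).card ∣
      Nat.card (centralizer ({t} : Set G) ⊓ Y2 G a b : Subgroup G) := by
    refine dvd_of_orbit _ c _ fun ω => ?_
    rw [Finset.mem_erase, Finset.mem_erase, hS]
    refine ⟨fun ⟨h1, h2, h⟩ => ?_, ?_⟩
    · by_cases e3 : ω = d
      · obtain ⟨g, hg, e1, e2, e, -⟩ := cent4 hy ea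
          (show D4 a b d c from ⟨ab, ad, ac, bd, bc, cd.symm⟩) ta tb td tc
        exact ⟨g, ⟨hg, e1, e2⟩, e3 ▸ e⟩
      obtain ⟨g, hg, e1, e2, e, -⟩ := cent4 hy ea
        (show D4 a b ω d from ⟨ab, h2.symm, ad, h1.symm, bd, e3⟩) ta tb h td
      exact ⟨g, ⟨hg, e1, e2⟩, e⟩
    · rintro ⟨g, ⟨hg, e1, e2⟩, rfl⟩
      refine ⟨fun e => bc ?_, fun e => ac ?_, (fix_smul (mem_centralizer_singleton_iff.1 hg)).2 tc⟩
      · exact (MulAction.injective g ((mem_stabilizer_iff.1 e2).trans e.symm))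
      · exact (MulAction.injective g ((mem_stabilizer_iff.1 e1).trans e.symm))
  rw [Finset.card_erase_of_mem (Finset.mem_erase.2 ⟨ab.symm, (hS _).2 tb⟩),
    Finset.card_erase_of_mem ((hS _).2 ta)] at d2
  rw [Finset.card_compl] at h4 d1 d2
  by_cases e2 : (toPermHom G Ω t).support.card = 2
  · exact no_cycle hy ea hn8 Nat.prime_two (by omega) (Perm.card_support_eq_two.1 e2).isCycle e2
  have h5 : Fintype.card Ω - (toPermHom G Ω t).support.card = 5 ∨
      Fintype.card Ω - (toPermHom G Ω t).support.card = 7 ∨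
      Fintype.card Ω - (toPermHom G Ω t).support.card = 9 := by omega
  rcases h5 with h | h | h
  · exact odd_case hy ea hn8 (p := 5) (by norm_num) (by norm_num) (by omega) (by omega) (by omega)
      le_rfl (h ▸ d1)
  · exact odd_case hy ea hn8 (p := 7) (by norm_num) (by norm_num) (by omega) (by omega) (by omega)
      le_rfl (h ▸ d1)
  · rw [h] at d2
    exact odd_case hy ea hn8 (p := 7) (by norm_num) (by norm_num) (by omega) (by omega) (by omega)
      inf_le_left d2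

end H40.FBSM
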