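import Cfsg.Agent.H40.Gagola2
import Cfsg.Agent.H18.FpfHom
import Cfsg.Agent.H3.DSQAut
import Cfsg.Agent.S3742
import Cfsg.Agent.H7.NPC
import Cfsg.Agent.H5.ThompsonCond
import Cfsg.Agent.H2.MinNormal

/-! Solvable groups acting transitively on the nonzero vectors with Sylow stabilizers. -/

set_option autoImplicit false

open Cfsg
open scoped commutatorElement

namespace H40

theorem eight_dvd_three_pow_sub_one {m : ℕ} (h : 4 ∣ 3 ^ m - 1) : 8 ∣ 3 ^ m - 1 := by
  have key : ∀ k : ℕ, 3 ^ (2 * k) % 8 = 1 := fun k => by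
    rw [pow_mul, Nat.pow_mod]; simp
  have hpos : 1 ≤ 3 ^ m := Nat.one_le_pow _ _ (by norm_num)
  rcases Nat.even_or_odd' m with ⟨k, rfl | rfl⟩
  · have := key k
    omega
  · have := key k
    rw [pow_succ] at h hpos
    omega

theorem not_eight_dvd_mul {a b : ℕ} (ha : ¬ 4 ∣ a) (hb : ¬ 4 ∣ b) : ¬ 8 ∣ a * b := by
  intro h
  have h1 : a % 4 = 1 ∨ a % 4 = 2 ∨ a % 4 = 3 := by omega
  have h2 : b % 4 = 1 ∨ b % 4 = 2 ∨ b % 4 = 3 := by omega
  have h3 : a % 8 = a % 4 ∨ a % 8 = a % 4 + 4 := by omega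
  have h4 : b % 8 = b % 4 ∨ b % 8 = b % 4 + 4 := by omega
  have h5 : (a % 8) * (b % 8) % 8 = 0 := by rw [← Nat.mul_mod]; omega
  rcases h1 with h1 | h1 | h1 <;> rcases h2 with h2 | h2 | h2 <;> rcases h3 with h3 | h3 <;>
    rcases h4 with h4 | h4 <;> simp [h3, h4, h1, h2] at h5

/-- The Klein four group inside of the symmetric group of degree four. -/
def kleinS4 : Subgroup (Equiv.Perm (Fin 4)) where
  carrier := {σ | σ * σ = 1 ∧ Equiv.Perm.sign σ = 1}
  one_mem' := by simp
  mul_mem' := by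
    intro a b
    simp only [Set.mem_ofPred_eq]
    revert a b
    decide +kernel
  inv_mem' := by
    intro a
    simp only [Set.mem_ofPred_eq]
    revert a
    decide +kernel

theorem commutator_mem_kleinS4 : ∀ a b : Equiv.Perm (Fin 4), Equiv.Perm.sign a = 1 →
    Equiv.Perm.sign b = 1 → (a * b * a⁻¹ * b⁻¹) * (a * b * a⁻¹ * b⁻¹) = 1 ∧
      Equiv.Perm.sign (a * b * a⁻¹ * b⁻¹) = 1 := by
  decide +kernel

set_option synthInstance.maxSize 1024 in
theorem three_subgroup_S4 : ∀ σ ρ : Equiv.Perm (Fin 4), σ ^ 3 = 1 → σ ≠ 1 → ρ ^ 3 = 1 →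
    (σ * ρ) ^ 3 = 1 → (σ * ρ⁻¹) ^ 3 = 1 → ρ = 1 ∨ ρ = σ ∨ ρ = σ⁻¹ := by
  decide +kernel

theorem card_normalizing_S4 : ∀ σ : Equiv.Perm (Fin 4), σ ^ 3 = 1 → σ ≠ 1 →
    (Finset.univ.filter fun τ : Equiv.Perm (Fin 4) =>
      τ * σ * τ⁻¹ = σ ∨ τ * σ * τ⁻¹ = σ⁻¹).card = 6 := by
  decide +kernel

theorem pow_three_of_S4 (σ : Equiv.Perm (Fin 4)) {k : ℕ} (h : σ ^ 3 ^ k = 1) : σ ^ 3 = 1 := by
  have h1 : orderOf σ ∣ 24 := by
    have := orderOf_dvd_card (x := σ)
    rwa [Fintype.card_perm, Fintype.card_fin] at this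
  obtain ⟨j, -, hj⟩ := (Nat.dvd_prime_pow Nat.prime_three).1 (orderOf_dvd_of_pow_eq_one h)
  refine orderOf_dvd_iff_pow_eq_one.1 ?_
  rw [hj] at h1 ⊢
  rcases j with _ | _ | j
  · simp
  · simp
  · exfalso
    rw [pow_succ, pow_succ, mul_assoc] at h1
    exact absurd ((Dvd.intro_left _ rfl).trans h1) (by norm_num)

section
variable {H V : Type*} [Group H] [Finite H] [Group V] [Finite V] [Nontrivial V]
  (φ : H →* MulAut V) {p : ℕ} [hp : Fact p.Prime]

theorem card_normalizer_of_transitive (hV : IsPGroup p V)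
    (hstab : ∀ v : V, v ≠ 1 → ∃ P : Sylow p H, ∀ h, h ∈ (P : Subgroup H) ↔ φ h v = v)
    (htrans : ∀ v w : V, v ≠ 1 → w ≠ 1 → ∃ h, φ h v = w) (S : Sylow p H) :
    ∃ m, Nat.card (Subgroup.normalizer ((S : Subgroup H) : Set H)) =
      (p ^ m - 1) * Nat.card S := by
  classical
  let W : Subgroup V :=
    { carrier := {v | ∀ s ∈ (S : Subgroup H), φ s v = v}
      one_mem' := fun s _ => map_one _
      mul_mem' := fun ha hb s hs => by rw [map_mul, ha s hs, hb s hs]
      inv_mem' := fun ha s hs => by rw [map_inv, ha s hs] }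
  have hW : ∀ w ∈ W, w ≠ 1 → ∀ h, h ∈ (S : Subgroup H) ↔ φ h w = w := fun w hw hw1 h => by
    obtain ⟨P, hP⟩ := hstab w hw1
    rw [← hP, S.is_maximal' P.isPGroup' fun s hs => (hP s).2 (hw s hs)]
  obtain ⟨w₀, hw₀, hw₁⟩ : ∃ w ∈ W, w ≠ 1 := by
    obtain ⟨v, hv⟩ := exists_ne (1 : V)
    obtain ⟨P, hP⟩ := hstab v hv
    obtain ⟨g, hg⟩ := MulAction.exists_smul_eq H P S
    refine ⟨φ g v, fun s hs => ?_, by simpa using hv⟩
    rw [← hg, Sylow.coe_subgroup_smul, Subgroup.mem_pointwise_smul_iff_inv_smul_mem] at hs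
    have h1 := (hP _).1 hs
    simp only [MulAut.smul_def, MulAut.conj_inv_apply, map_mul, map_inv, MulAut.mul_apply] at h1
    conv_rhs => rw [← h1]
    simp
  set Nn := Subgroup.normalizer ((S : Subgroup H) : Set H)
  let _ : MulAction Nn V := MulAction.compHom V (φ.comp Nn.subtype)
  have hsm : ∀ (n : Nn) (v : V), n • v = φ n v := fun _ _ => rfl
  have h1 : MulAction.stabilizer Nn w₀ = (S : Subgroup H).subgroupOf Nn := by
    ext n
    rw [MulAction.mem_stabilizer_iff, hsm, Subgroup.mem_subgroupOf, hW w₀ hw₀ hw₁]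
  have h2 : MulAction.orbit Nn w₀ = (W : Set V) \ {1} := by
    ext w
    constructor
    · rintro ⟨n, rfl⟩
      refine ⟨fun s hs => ?_, by simpa [hsm] using hw₁⟩
      have h3 := hw₀ _ ((Subgroup.mem_normalizer_iff''.1 n.2 s).1 hs)
      simp only [map_mul, map_inv, MulAut.mul_apply] at h3
      simp only [hsm]
      conv_rhs => rw [← h3]
      simp
    · rintro ⟨hw, hw1⟩
      obtain ⟨g, hg⟩ := htrans w₀ w hw₁ hw1
      refine ⟨⟨g, Subgroup.mem_normalizer_iff.2 fun s => ?_⟩, hg⟩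
      rw [hW w₀ hw₀ hw₁, hW w hw hw1, ← hg]
      simp
  obtain ⟨m, hm⟩ := IsPGroup.iff_card.1 (hV.to_subgroup W)
  refine ⟨m, ?_⟩
  rw [← (MulAction.stabilizer Nn w₀).index_mul_card, MulAction.index_stabilizer, h2, h1,
    Nat.card_congr (Subgroup.subgroupOfEquivOfLe Subgroup.le_normalizer).toEquiv,
    Set.ncard_sdiff_singleton_of_mem W.one_mem, ← hm]
  rfl

theorem not_dvd_card_commutator_of_transitive [Group.IsSolvable H] (hφ : Function.Injective φ)
    (hO : pCore p H = ⊥) (hV : IsPGroup p V)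
    (hstab : ∀ v : V, v ≠ 1 → ∃ P : Sylow p H, ∀ h, h ∈ (P : Subgroup H) ↔ φ h v = v)
    (htrans : ∀ v w : V, v ≠ 1 → w ≠ 1 → ∃ h, φ h v = w) :
    ¬ p ∣ Nat.card (commutator H) := by
  intro hdvd
  obtain ⟨⟨x, hx⟩, hxp⟩ := exists_prime_orderOf_dvd_card' p hdvd
  rw [Subgroup.orderOf_mk] at hxp
  have hxp' : x ^ p = 1 := hxp ▸ pow_orderOf_eq_one x
  have hfix : ∀ {r : ℕ}, r.Prime → r ≠ p → ∀ h : H, ∀ j, h ^ r ^ j = 1 → h ≠ 1 →
      ∀ v, φ h v = v → v = 1 := by
    intro r hr hrp h j hj h1 v hv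
    by_contra hv1
    obtain ⟨P, hP⟩ := hstab v hv1
    obtain ⟨k, hk⟩ := P.isPGroup' ⟨h, (hP h).2 hv⟩
    refine h1 (orderOf_eq_one_iff.1 (Nat.eq_one_of_dvd_coprimes
      (Nat.Coprime.pow j k ((Nat.coprime_primes hr hp.out).2 hrp))
      (orderOf_dvd_of_pow_eq_one hj) (orderOf_dvd_of_pow_eq_one (congrArg Subtype.val hk))))
  suffices key : ∀ r : Nat.Primes, pCore r H ≤ Subgroup.centralizer {x} by
    have h1 : x ∈ fittingSubgroup H := H2.centralizer_fitting_le H fun y hy => by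
      rw [H2.fitting_eq_iSup_pCore] at hy
      exact Subgroup.mem_centralizer_singleton_iff.1 (iSup_le key hy)
    have h2 := H2.coprime_orderOf_of_mem_pPrimeCore
      (H2.fitting_le_pPrimeCore_of_pCore_eq_bot hO h1)
    rw [hxp, Nat.coprime_self] at h2
    exact hp.out.one_lt.ne' h2
  rintro ⟨r, hr⟩
  by_cases hrp : r = p
  · subst hrp
    exact hO.le.trans bot_le
  have := Fact.mk hr
  set Q := pCore r H with hQ
  have hQr : IsPGroup r Q := H2.pCore_isPGroup r H
  let ψ : H →* MulAut Q := MulAut.conjNormal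
  have hψ : ∀ y : H, ψ y = 1 ↔ ∀ q ∈ Q, q * y = y * q := fun y => by
    refine ⟨fun h q hq => ?_, fun h => ?_⟩
    · have := congrArg Subtype.val (DFunLike.congr_fun h ⟨q, hq⟩)
      simp only [ψ, MulAut.conjNormal_apply, MulAut.one_apply] at this
      exact (mul_inv_eq_iff_eq_mul.1 this).symm
    · ext q
      simp only [ψ, MulAut.conjNormal_apply, MulAut.one_apply]
      rw [← h q q.2, mul_inv_cancel_right]
  suffices ψ x = 1 from fun q hq => Subgroup.mem_centralizer_singleton_iff.2 ((hψ x).1 this q hq)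
  have hcyc : IsCyclic Q → ψ x = 1 := fun hc => by
    have := Abelianization.commutator_subset_ker
      ((IsCyclic.mulAutMulEquiv Q).toMonoidHom.comp ψ) hx
    exact (map_eq_one_iff _ (IsCyclic.mulAutMulEquiv Q).injective).1 this
  rcases H18.isCyclic_or_quaternion_of_fpf_hom (φ.comp Q.subtype) (fun a ha => by
    obtain ⟨j, hj⟩ := hQr a
    exact hfix hr hrp a j (congrArg Subtype.val hj) fun e => ha (Subtype.ext e)) hQr with
    hc | ⟨rfl, n, ⟨e⟩⟩
  · exact hcyc hc
  rcases n with _ | n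
  · have := QuaternionGroup.quaternionGroup_one_isCyclic
    exact hcyc (isCyclic_of_surjective e.symm e.symm.surjective)
  rcases ((H3.dsq_quaternion n).of_mulEquiv e.symm).quaternion_eight_or_isPGroup_mulAut with
    ⟨⟨e⟩⟩ | h2
  swap
  · obtain ⟨k, hk⟩ := h2 (ψ x)
    refine orderOf_eq_one_iff.1 (Nat.eq_one_of_dvd_coprimes
      (Nat.Coprime.pow_left k ((Nat.coprime_primes hr hp.out).2 hrp))
      (orderOf_dvd_of_pow_eq_one hk) (orderOf_dvd_of_pow_eq_one ?_))
    rw [← map_pow, hxp', map_one]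
  obtain ⟨e4⟩ := Cfsg.Agent.S3742.result
  let f : H →* Equiv.Perm (Fin 4) := (((MulAut.congr e).trans e4).toMonoidHom).comp ψ
  have hf : ∀ y, f y = 1 ↔ ψ y = 1 := fun y =>
    map_eq_one_iff _ ((MulAut.congr e).trans e4).injective
  by_contra hne
  rw [← hf] at hne
  have hp3 : p = 3 := by
    have h1 : orderOf (f x) = p := orderOf_eq_prime (by rw [← map_pow, hxp', map_one]) hne
    have h2 : p ∣ 2 ^ 3 * 3 := by
      have := orderOf_dvd_card (x := f x)
      rwa [Fintype.card_perm, Fintype.card_fin, h1] at this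
    rcases (Nat.Prime.dvd_mul hp.out).1 h2 with h3 | h3
    · exact absurd ((Nat.prime_dvd_prime_iff_eq hp.out Nat.prime_two).1
        (hp.out.dvd_of_dvd_pow h3)).symm hrp
    · exact (Nat.prime_dvd_prime_iff_eq hp.out Nat.prime_three).1 h3
  subst hp3
  have hσ : f x ^ 3 = 1 := by rw [← map_pow, hxp', map_one]
  obtain ⟨S, hS⟩ := (H28.isPGroup_zpowers_of_pow (p := 3) (k := 1) (x := x)
    (by rwa [pow_one])).exists_le_sylow
  have hxS : x ∈ (S : Subgroup H) := hS (Subgroup.mem_zpowers x)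
  have hS3 : ∀ s ∈ (S : Subgroup H), f s ^ 3 = 1 := fun s hs => by
    obtain ⟨k, hk⟩ := S.isPGroup' ⟨s, hs⟩
    refine pow_three_of_S4 _ (k := k) ?_
    rw [← map_pow, show s ^ 3 ^ k = 1 from congrArg Subtype.val hk, map_one]
  set Nn := Subgroup.normalizer ((S : Subgroup H) : Set H) with hNn
  -- involutions
  have hinv : ∀ t : H, t * t = 1 → t ≠ 1 → ∀ v, φ t v = v⁻¹ := fun t ht ht1 =>
    H18.apply_eq_inv_of_fpf (by rw [← map_mul, ht, map_one])
      (hfix Nat.prime_two hrp t 1 (by rwa [pow_one, sq]) ht1)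
  have huniq : ∀ t t' : H, t * t = 1 → t ≠ 1 → t' * t' = 1 → t' ≠ 1 → t = t' :=
    fun t t' h1 h2 h3 h4 => hφ (MulEquiv.ext fun v => by rw [hinv t h1 h2, hinv t' h3 h4])
  let i : Q := e.symm (QuaternionGroup.a 1)
  let j : Q := e.symm (QuaternionGroup.xa 0)
  set z : H := i * i with hz
  have hz1 : z ≠ 1 := fun h => by
    have : i * i = 1 := Subtype.ext h
    rw [← map_mul, map_eq_one_iff _ e.symm.injective] at this
    exact absurd this (by decide)
  have hz2 : z * z = 1 := by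
    have : i * i * (i * i) = 1 := by
      rw [← map_mul, ← map_mul, map_eq_one_iff _ e.symm.injective]
      decide
    exact congrArg Subtype.val this
  have hjz : (j : H) * j = z := by
    have : j * j = i * i := by
      rw [← map_mul, ← map_mul]
      congr 1
    exact congrArg Subtype.val this
  have hij : (i : H) * j ≠ j * i := fun h => by
    have : i * j = j * i := Subtype.ext h
    rw [← map_mul, ← map_mul] at this
    exact absurd (e.symm.injective this) (by decide)
  have hzc : ∀ y : H, y * z = z * y := fun y => mul_inv_eq_iff_eq_mul.1 (huniq _ _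
    (by rw [conj_mul, hz2]; simp) (by simpa using hz1) hz2 hz1)
  -- an odd permutation in the image of the normalizer
  let g : H →* ℤˣ := Equiv.Perm.sign.comp f
  obtain ⟨n, hn, hgn⟩ : ∃ n ∈ Nn, g n ≠ 1 := by
    by_contra hc
    push Not at hc
    have h1 : (S : Subgroup H) ≤ g.ker := fun s hs => by
      have h2 : g s ^ 3 = 1 := by
        change Equiv.Perm.sign (f s) ^ 3 = 1
        rw [← map_pow, hS3 s hs, map_one]
      rw [MonoidHom.mem_ker, ← h2, pow_succ, Int.units_sq, one_mul]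
    have h2 : Nn ⊔ g.ker = ⊤ := Sylow.normalizer_sup_eq_top' S h1
    rw [sup_eq_right.2 (show Nn ≤ g.ker from hc)] at h2
    have h3 : commutator H ≤ kleinS4.comap f := by
      rw [commutator_def, Subgroup.commutator_le]
      intro a _ b _
      rw [Subgroup.mem_comap, map_commutatorElement]
      exact commutator_mem_kleinS4 _ _ (h2 ▸ Subgroup.mem_top a : a ∈ g.ker)
        (h2 ▸ Subgroup.mem_top b : b ∈ g.ker)
    have h4 : f x * f x = 1 := (h3 hx).1
    rw [pow_succ, sq, h4, one_mul] at hσ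
    exact hne hσ
  have hzN : z ∈ Nn := Subgroup.mem_normalizer_iff.2 fun s => by
    rw [← hzc, mul_inv_cancel_right]
  have hfz : f z = 1 := (hf z).2 ((hψ z).2 fun q _ => hzc q)
  have hcard : ∀ {A : Type} [Group A] (k : Nn →* A),
      Nat.card Nn = Nat.card k.ker * Nat.card k.range := fun k => by
    rw [← Subgroup.index_ker, Subgroup.card_mul_index]
  have h4 : 4 ∣ Nat.card Nn := by
    rw [hcard (g.comp Nn.subtype)]
    refine Nat.mul_dvd_mul (a := 2) (c := 2) ?_ ?_
    · have h1 : (⟨z, hzN⟩ : Nn) ∈ (g.comp Nn.subtype).ker := by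
        change Equiv.Perm.sign (f z) = 1
        rw [hfz, map_one]
      have h2 := Subgroup.orderOf_dvd_natCard _ h1
      rwa [Subgroup.orderOf_mk, orderOf_eq_prime (p := 2) (by rwa [sq]) hz1] at h2
    · have h2 := Subgroup.orderOf_dvd_natCard (g.comp Nn.subtype).range (x := g n) ⟨⟨n, hn⟩, rfl⟩
      rwa [orderOf_eq_prime (p := 2) (Int.units_sq _) hgn] at h2
  obtain ⟨m, hm⟩ := card_normalizer_of_transitive φ hV hstab htrans S
  obtain ⟨k, hk⟩ := IsPGroup.iff_card.1 S.isPGroup'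
  have h8 : 8 ∣ Nat.card Nn := by
    rw [hm] at h4 ⊢
    rw [hk] at h4
    exact (eight_dvd_three_pow_sub_one ((Nat.Coprime.pow_right k
      (by norm_num : Nat.Coprime 4 3)).dvd_of_dvd_mul_right h4)).mul_right _
  rw [hcard (f.comp Nn.subtype)] at h8
  refine not_eight_dvd_mul (fun h => ?_) (fun h => ?_) h8
  · obtain ⟨R, hR⟩ := Sylow.exists_subgroup_card_pow_prime 2 (n := 2) h
    obtain ⟨y, hy⟩ : ∃ y : R, ((y : Nn) : H) * (y : Nn) ≠ 1 := by
      by_contra hc
      push Not at hc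
      have h1 : Nat.card R ≤ Nat.card ({1, z} : Set H) :=
        Nat.card_le_card_of_injective (fun y => ⟨(y : Nn), by
          by_cases h2 : ((y : Nn) : H) = 1
          · exact Or.inl h2
          · exact Or.inr (huniq _ _ (hc y) h2 hz2 hz1)⟩)
          fun a b hab => Subtype.ext (Subtype.ext (Subtype.ext (Subtype.mk.inj hab)))
      rw [hR, Nat.card_coe_set_eq, Set.ncard_pair hz1.symm] at h1
      omega
    set u : H := y.1.1.1 with hu
    have hu4 : u * u * (u * u) = 1 := by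
      have h1 : y ^ 4 = 1 := by
        have := pow_card_eq_one' (x := y)
        rwa [hR] at this
      have h2 : u ^ 4 = 1 := congrArg (fun y : R => ((y : Nn) : H)) h1
      rw [← h2]
      simp only [pow_succ, pow_zero, one_mul, mul_assoc]
    have huz := huniq _ _ hu4 hy hz2 hz1
    have huQ := (hψ u).1 ((hf u).1 (y : (f.comp Nn.subtype).ker).2)
    have hcen : ∀ q : Q, (q : H) * q = z → ∀ w, w * (u * q) = (u * q) * w := fun q hq w => by
      have h1 : u * q * (u * q) = 1 := by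
        calc u * q * (u * q) = u * (q * u) * q := by group
          _ = (u * u) * (q * q) := by rw [huQ q q.2]; group
          _ = 1 := by rw [huz, hq, hz2]
      by_cases h2 : u * q = 1
      · rw [h2, mul_one, one_mul]
      · rw [huniq _ _ h1 h2 hz2 hz1, hzc]
    refine hij (mul_left_cancel (a := u) ?_)
    rw [← mul_assoc, ← hcen i rfl j, ← mul_assoc, huQ j j.2, mul_assoc]
  · have h1 : Nat.card (f.comp Nn.subtype).range ≤ 6 := by
      rw [← card_normalizing_S4 (f x) hσ hne, ← Fintype.card_subtype, ← Nat.card_eq_fintype_card]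
      refine Nat.card_le_card_of_injective (fun τ => ⟨τ.1, ?_⟩)
        fun a b hab => Subtype.ext (Subtype.mk.inj hab)
      obtain ⟨_, ⟨y, rfl⟩⟩ := τ
      have h2 : (y : H) * x * (y : H)⁻¹ ∈ (S : Subgroup H) :=
        (Subgroup.mem_normalizer_iff.1 y.2 x).1 hxS
      have h3 := three_subgroup_S4 (f x) (f (y * x * (y : H)⁻¹)) hσ hne (hS3 _ h2)
        (by rw [← map_mul]; exact hS3 _ (mul_mem hxS h2))
        (by rw [← map_inv, ← map_mul]; exact hS3 _ (mul_mem hxS (inv_mem h2)))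
      simp only [map_mul, map_inv] at h3
      exact h3.resolve_left (by simpa using hne)
    have h2 := Subgroup.orderOf_dvd_natCard (f.comp Nn.subtype).range (x := f x)
      ⟨⟨x, Subgroup.le_normalizer hxS⟩, rfl⟩
    rw [orderOf_eq_prime (p := 3) hσ hne] at h2
    have h3 : 0 < Nat.card (f.comp Nn.subtype).range := Nat.card_pos
    omega

end

theorem hasNPC_and_comm_of_not_dvd_commutator {H : Type*} [Group H] [Finite H] {p : ℕ}
    [hp : Fact p.Prime] (h : ¬ p ∣ Nat.card (commutator H)) :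
    HasNormalPComplement p H ∧ ∀ Q : Sylow p H, IsMulCommutative (Q : Subgroup H) := by
  refine ⟨H7.hasNPC_of_quotient_not_dvd (commutator H) h ?_, fun Q => ⟨⟨fun a b => ?_⟩⟩⟩
  · have : Group.IsNilpotent (H ⧸ commutator H) :=
      inferInstanceAs (Group.IsNilpotent (Abelianization H))
    exact H5.hasNPC_of_isNilpotent p
  · have h1 := H2.disjoint_of_isPGroup_of_coprime Q.isPGroup'
      ((Nat.Prime.coprime_iff_not_dvd hp.out).2 h).symm
    rw [← commutatorElement_eq_one_iff_mul_comm]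
    refine Subtype.ext (Subgroup.disjoint_def.1 h1 (⁅a, b⁆).2 ?_)
    exact Subgroup.commutator_mem_commutator (Subgroup.mem_top (a : H)) (Subgroup.mem_top (b : H))

namespace Gag

variable {G : Type*} [Group G] [Finite G] {χ : G → ℂ} {N : Subgroup G} {a c : ℕ}
  (h : Gag χ N a c) {p : ℕ} [hp : Fact p.Prime]
include h

theorem pCore_eq_centralizer (hNp : IsPGroup p N) :
    pCore p G = Subgroup.centralizer (N : Set G) := by
  have := h.normal
  refine le_antisymm ?_ (H2.le_pCore (h.isPGroup_centralizer_N hNp))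
  have := (H2.pCore_isPGroup p G).isNilpotent
  exact H2.le_centralizer_of_minimal_normal (fun K _ hK => by
    by_cases hb : K = ⊥
    · exact Or.inl hb
    · exact Or.inr (le_antisymm hK (h.le_of_normal K hb))) _

theorem not_dvd_card_commutator [Group.IsSolvable G] (hNp : IsPGroup p N) :
    ¬ p ∣ Nat.card (commutator (G ⧸ pCore p G)) := by
  have hN := h.normal
  have : Nontrivial N := (Subgroup.nontrivial_iff_ne_bot N).2 h.ne_bot
  have hker : ∀ g : G, g ∈ pCore p G ↔ (MulAut.conjNormal g : MulAut N) = 1 := fun g => by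
    rw [h.pCore_eq_centralizer hNp]
    refine ⟨fun hg => MulEquiv.ext fun n => Subtype.ext ?_, fun hg n hn => ?_⟩
    · rw [MulAut.conjNormal_apply, ← hg n n.2, mul_inv_cancel_right]
      rfl
    · have := congrArg Subtype.val (DFunLike.congr_fun hg ⟨n, hn⟩)
      exact (mul_inv_eq_iff_eq_mul.1 this).symm
  let φ : G ⧸ pCore p G →* MulAut N :=
    QuotientGroup.lift _ MulAut.conjNormal fun g hg => (hker g).1 hg
  refine not_dvd_card_commutator_of_transitive φ ((injective_iff_map_eq_one φ).2 fun q hq => ?_)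
    (H2.pCore_quotient_pCore p G) hNp (fun v hv => ?_) (fun v w hv hw => ?_)
  · obtain ⟨g, rfl⟩ := QuotientGroup.mk_surjective q
    exact (QuotientGroup.eq_one_iff g).2 ((hker g).2 hq)
  · obtain ⟨P, hP⟩ := h.exists_sylow_of_index hNp (h.index v v.2 fun e => hv (Subtype.ext e))
    refine ⟨P.mapSurjective (QuotientGroup.mk'_surjective _), fun q => ?_⟩
    obtain ⟨g, rfl⟩ := QuotientGroup.mk_surjective q
    rw [Sylow.coe_mapSurjective, ← QuotientGroup.mk'_apply, ← Subgroup.mem_comap,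
      Subgroup.comap_map_eq_self (by rw [QuotientGroup.ker_mk']; exact H2.pCore_le_sylow P), ← hP,
      H28.mem_centralizer_singleton_conj, Subtype.ext_iff]
    rfl
  · obtain ⟨g, hg⟩ := isConj_iff.1 (h.isConj v v.2 w w.2 (fun e => hv (Subtype.ext e))
      fun e => hw (Subtype.ext e))
    exact ⟨g, Subtype.ext hg⟩

end Gag

end H40
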