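/- Tower IV (S3929): the class of an involution against the inverted elements of odd order. -/
import Cfsg.Agent.H42.IVSpec

set_option autoImplicit false

namespace H40.IVCntA

open Subgroup H42.IV

universe u

theorem decomp {H : Type*} [Group H] [Finite H] (c : H) : ∃ (x y : ℤ) (k m : ℕ), Odd m ∧
    (c ^ x) ^ 2 ^ k = 1 ∧ (c ^ y) ^ m = 1 ∧ c ^ x * c ^ y = c := by
  obtain ⟨k, m, hm, e⟩ := Nat.exists_eq_two_pow_mul_odd (orderOf_pos c).ne'
  have h1 : Nat.Coprime (2 ^ k) m := (Nat.coprime_two_left.2 hm).pow_left k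
  have h2 := Nat.gcd_eq_gcd_ab (2 ^ k) m
  rw [h1.gcd_eq_one] at h2
  have h3 : c ^ ((2 ^ k * m : ℕ) : ℤ) = 1 := by rw [zpow_natCast, ← e, pow_orderOf_eq_one]
  refine ⟨m * Nat.gcdB (2 ^ k) m, (2 ^ k : ℕ) * Nat.gcdA (2 ^ k) m, k, m, hm, ?_, ?_, ?_⟩
  · rw [← zpow_natCast, ← zpow_mul, show (m : ℤ) * Nat.gcdB (2 ^ k) m * (2 ^ k : ℕ) =
      ((2 ^ k * m : ℕ) : ℤ) * Nat.gcdB (2 ^ k) m by push_cast; ring, zpow_mul, h3, one_zpow]
  · rw [← zpow_natCast, ← zpow_mul, show ((2 ^ k : ℕ) : ℤ) * Nat.gcdA (2 ^ k) m * m =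
      ((2 ^ k * m : ℕ) : ℤ) * Nat.gcdA (2 ^ k) m by push_cast; ring, zpow_mul, h3, one_zpow]
  · rw [← zpow_add, add_comm, ← h2, Nat.cast_one, zpow_one]

theorem jobCntA : JobCntA.{u} := by
  intro H _ _ a ha
  have : Fact (Nat.Prime 2) := ⟨Nat.prime_two⟩
  rw [← Set.ncard_prod]
  refine le_trans (Set.ncard_le_ncard ?_) (Set.ncard_image_le (f := fun p : H × H => p.2 * p.1))
  intro b hb
  have hb2 : b * b = 1 := by
    obtain ⟨g, rfl⟩ := isConj_iff.1 hb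
    calc _ = g * (a * a) * g⁻¹ := by group
      _ = 1 := by rw [ha]; group
  have ai : a⁻¹ = a := inv_eq_of_mul_eq_one_right ha
  have bi : b⁻¹ = b := inv_eq_of_mul_eq_one_right hb2
  have hc : a * (a * b) * a⁻¹ = (a * b)⁻¹ := by
    rw [← mul_assoc, ha, one_mul, mul_inv_rev, bi]
  have hz : ∀ n : ℤ, a * (a * b) ^ n * a⁻¹ = ((a * b) ^ n)⁻¹ := fun n => by
    rw [← conj_zpow, hc, inv_zpow]
  obtain ⟨x, y, k, m, hm, h1, h2, h3⟩ := decomp (a * b)
  have hu := hz x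
  have hj := hz y
  have huj : Commute ((a * b) ^ x) ((a * b) ^ y) := Commute.zpow_zpow_self _ x y
  generalize (a * b) ^ x = v at *
  generalize (a * b) ^ y = j at *
  have hb' : b = a * v * j := by rw [mul_assoc, h3, ← mul_assoc, ha, one_mul]
  obtain ⟨q, hq⟩ := hm
  have hi : j ^ (q + 1) * j ^ (q + 1) = j := by
    rw [← pow_add, show q + 1 + (q + 1) = m + 1 by omega, pow_succ, h2, one_mul]
  have hi' : a * v * j ^ (q + 1) = (j ^ (q + 1))⁻¹ * (a * v) := by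
    calc _ = a * j ^ (q + 1) * a⁻¹ * (a * v) := by
          rw [mul_assoc a v, (huj.pow_right (q + 1)).eq]; group
      _ = _ := by rw [← conj_pow, hj, inv_pow]
  refine ⟨(j, a * v), ⟨⟨?_, hj⟩, ?_, ?_⟩, hb'.symm⟩
  · exact Odd.of_dvd_nat ⟨q, hq⟩ (orderOf_dvd_of_pow_eq_one h2)
  · refine IsConj.trans hb (isConj_iff.2 ⟨j ^ (q + 1), ?_⟩)
    change j ^ (q + 1) * b * (j ^ (q + 1))⁻¹ = a * v
    calc _ = j ^ (q + 1) * (a * v * j ^ (q + 1)) := by
          rw [show b = a * v * (j ^ (q + 1) * j ^ (q + 1)) by rw [hi, hb']]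
          simp only [mul_assoc, mul_inv_cancel, mul_one]
      _ = _ := by rw [hi']; group
  · have p1 : IsPGroup 2 (zpowers a) := IsPGroup.of_card_dvd_pow (n := 1)
      (by rw [Nat.card_zpowers]; exact orderOf_dvd_of_pow_eq_one (by rw [pow_one, pow_two, ha]))
    have p2 : IsPGroup 2 (zpowers v) := IsPGroup.of_card_dvd_pow (n := k)
      (by rw [Nat.card_zpowers]; exact orderOf_dvd_of_pow_eq_one h1)
    have hn : zpowers a ≤ normalizer (zpowers v : Set H) := by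
      rw [zpowers_le]
      refine mem_normalizer_fintype ?_
      rintro _ ⟨n, rfl⟩
      change a * v ^ n * a⁻¹ ∈ zpowers v
      rw [← conj_zpow, hu]
      exact zpow_mem (inv_mem (mem_zpowers v)) n
    obtain ⟨Q, hQ⟩ := (p1.to_sup_of_normal_right' p2 hn).exists_le_sylow
    have h4 : a ∈ Q := hQ (mem_sup_left (mem_zpowers a))
    exact ⟨Q, h4, mul_mem h4 (hQ (mem_sup_right (mem_zpowers v)))⟩

end H40.IVCntA
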