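import Cfsg.Agent.Base
/-! A `2`-group with the Frobenius group `13 : 3` of operators, the kernel acting without fixed
points and the fixed points of the complement of exponent two, has exponent dividing four. -/
set_option autoImplicit false
set_option linter.unusedSectionVars false
namespace H40.L13
open Subgroup
open scoped commutatorElement

abbrev Z := ZMod 13

section Fourier
variable {k : Type*} [Field k] {χ : AddChar Z k}

/-- Fourier coefficients in two variables. -/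
def S2 (χ : AddChar Z k) (g : Z → Z → k) (i j : Z) : k := ∑ s, ∑ t, χ (i * s + j * t) * g s t

theorem shift {M : Type*} [AddCommMonoid M] {a a' : Z} (ha : a * a' = 1) (r : Z) (g : Z → M) :
    ∑ s, g (r + a * s) = ∑ s, g s :=
  Fintype.sum_equiv ((Units.mulLeft ⟨a, a', ha, (mul_comm _ _).trans ha⟩).trans (Equiv.addLeft r))
    _ _ fun _ => rfl

theorem key (hχ : χ.IsPrimitive) (g : Z → Z → k) (i j : Z) {a a' b b' : Z} (ha : a * a' = 1)
    (hb : b * b' = 1) :
    ∑ r, ∑ s, ∑ t, χ ((i + j) * r + i * s + j * t) * g (r + a * s) (r + b * t) =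
      (if i + j = i * a' + j * b' then 13 else 0) * S2 χ g (i * a') (j * b') := by
  have e : ∀ r, ∑ s, ∑ t, χ ((i + j) * r + i * s + j * t) * g (r + a * s) (r + b * t) =
      χ (r * (i + j - (i * a' + j * b'))) * S2 χ g (i * a') (j * b') := fun r => by
    have e0 : S2 χ g (i * a') (j * b') = ∑ s, ∑ t,
        χ (i * a' * (r + a * s) + j * b' * (r + b * t)) * g (r + a * s) (r + b * t) := by
      rw [S2, ← shift ha r]
      exact Finset.sum_congr rfl fun s _ => (shift hb r _).symm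
    rw [e0, Finset.mul_sum]
    refine Finset.sum_congr rfl fun s _ => ?_
    rw [Finset.mul_sum]
    refine Finset.sum_congr rfl fun t _ => ?_
    rw [← mul_assoc, ← AddChar.map_add_eq_mul]
    congr 2
    linear_combination (-i * s) * ha - j * t * hb
  simp only [e, ← Finset.sum_mul, AddChar.sum_mulShift _ hχ, sub_eq_zero, ZMod.card]
  split_ifs <;> simp

theorem inv1 (hχ : χ.IsPrimitive) (h13 : (13 : k) ≠ 0) {g : Z → k}
    (h : ∀ i, ∑ s, χ (i * s) * g s = 0) : g 0 = 0 := by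
  have := Finset.sum_eq_zero (s := Finset.univ) fun i _ => h i
  rw [Finset.sum_comm] at this
  simp only [← Finset.sum_mul, AddChar.sum_mulShift _ hχ, ZMod.card] at this
  rw [Finset.sum_eq_single 0 (fun b _ hb => by simp [hb]) (by simp)] at this
  simpa [h13] using this

end Fourier

/-- The setting. -/
structure St {A : Type*} [Group A] (F : Z → MulAut A) (h : MulAut A) : Prop where
  p2 : IsPGroup 2 A
  add : ∀ r s x, F r (F s x) = F (r + s) x
  hF : ∀ s x, h (F s x) = F (3 * s) (h x)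
  h3 : ∀ x, h (h (h x)) = x
  fpf : ∀ x, F 1 x = x → x = 1
  c2 : ∀ x, h x = x → x * x = 1

/-- Additive on a subgroup. -/
def Ad {A M : Type*} [Group A] [AddCommGroup M] (U : Subgroup A) (θ : A → M) : Prop :=
  ∀ x ∈ U, ∀ y ∈ U, θ (x * y) = θ x + θ y

variable {A : Type*} [Group A] [Finite A] {F : Z → MulAut A} {h : MulAut A}
  {M : Type*} [AddCommGroup M] {U W : Subgroup A} {θ : A → M}

theorem mm [hU : U.Characteristic] (φ : MulAut A) {x : A} (hx : x ∈ U) : φ x ∈ U :=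
  characteristic_iff_le_comap.1 hU φ hx

theorem Ad.one (hθ : Ad U θ) : θ 1 = 0 := by
  simpa using hθ 1 U.one_mem 1 U.one_mem

theorem Ad.inv (hθ : Ad U θ) {x : A} (hx : x ∈ U) : θ x⁻¹ = -θ x := by
  have := hθ x hx x⁻¹ (U.inv_mem hx)
  rw [mul_inv_cancel, hθ.one] at this
  exact eq_neg_of_add_eq_zero_right this.symm

theorem Ad.comp [U.Characteristic] (hθ : Ad U θ) (φ : MulAut A) : Ad U fun x => θ (φ x) :=
  fun x hx y hy => by simp only [map_mul]; exact hθ _ (mm φ hx) _ (mm φ hy)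

theorem Ad.add {θ' : A → M} (hθ : Ad U θ) (hθ' : Ad U θ') : Ad U fun x => θ x + θ' x :=
  fun x hx y hy => by simp only [hθ x hx y hy, hθ' x hx y hy]; abel

/-- The norm of `h`. -/
def N (h : MulAut A) (θ : A → M) (x : A) : M := θ x + θ (h x) + θ (h (h x))

theorem Ad.norm [U.Characteristic] (hθ : Ad U θ) (h : MulAut A) : Ad U (N h θ) :=
  (hθ.add (hθ.comp h)).add ((hθ.comp h).comp h)

theorem St.norm (S : St F h) (θ : A → M) (x : A) : N h θ (h x) = N h θ x := by
  simp only [N, S.h3]; abel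

theorem St.zero (S : St F h) (x : A) : F 0 x = x := (F 0).injective (by rw [S.add, add_zero])

theorem St.sumF (S : St F h) [U.Characteristic] (hθ : Ad U θ) {u : A} (hu : u ∈ U) :
    ∑ s, θ (F s u) = 0 := by
  let m : U → U := fun a => ⟨a⁻¹ * F 1 a, U.mul_mem (U.inv_mem a.2) (mm _ a.2)⟩
  have hm : Function.Injective m := fun a b e => by
    have e1 : (a : A)⁻¹ * F 1 a = (b : A)⁻¹ * F 1 b := congrArg Subtype.val e
    have := S.fpf ((b : A) * (a : A)⁻¹)⁻¹ (by
      rw [map_inv, map_mul, map_inv, inv_inj, mul_inv_eq_iff_eq_mul, mul_assoc, e1,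
        mul_inv_cancel_left])
    exact Subtype.ext (mul_inv_eq_one.1 (inv_eq_one.1 this)).symm
  obtain ⟨a, ha⟩ := Finite.injective_iff_surjective.1 hm ⟨u, hu⟩
  obtain rfl : (a : A)⁻¹ * F 1 a = u := congrArg Subtype.val ha
  have e : ∀ s, θ (F s ((a : A)⁻¹ * F 1 a)) = θ (F (1 + 1 * s) a) - θ (F s a) := fun s => by
    rw [map_mul, map_inv, hθ _ (U.inv_mem (mm _ a.2)) _ (mm _ (mm _ a.2)), hθ.inv (mm _ a.2), S.add,
      one_mul, add_comm 1 s]
    abel
  simp only [e, Finset.sum_sub_distrib]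
  rw [shift (mul_one 1) 1 fun s => θ (F s a), sub_self]

theorem St.invH (S : St F h) [U.Characteristic] (hθ : Ad U θ) (hi : ∀ x ∈ U, θ (h x) = θ x)
    {u : A} (hu : u ∈ U) : ∃ c ∈ U, h c = c ∧ θ c = θ u := by
  classical
  let K : Subgroup A :=
    { carrier := {x | x ∈ U ∧ θ x = 0}
      mul_mem' := fun {a b} ha hb => ⟨U.mul_mem ha.1 hb.1, by rw [hθ a ha.1 b hb.1, ha.2, hb.2, add_zero]⟩
      one_mem' := ⟨U.one_mem, hθ.one⟩
      inv_mem' := fun {a} ha => ⟨U.inv_mem ha.1, by rw [hθ.inv ha.1, ha.2, neg_zero]⟩ }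
  let m : K → K := fun x => ⟨u⁻¹ * h (u * x), U.mul_mem (U.inv_mem hu) (mm _ (U.mul_mem hu x.2.1)), by
    rw [hθ _ (U.inv_mem hu) _ (mm _ (U.mul_mem hu x.2.1)), hi _ (U.mul_mem hu x.2.1),
      hθ _ hu _ x.2.1, x.2.2, hθ.inv hu]
    abel⟩
  have hm : ∀ x, m (m (m x)) = x := fun x => Subtype.ext (by simp [m, S.h3])
  have := Fintype.ofFinite K
  have : Fact (Nat.Prime 3) := ⟨Nat.prime_three⟩
  have : Fact (Nat.Prime 2) := ⟨Nat.prime_two⟩
  obtain ⟨n, hn⟩ := (S.p2.to_subgroup K).exists_card_eq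
  obtain ⟨x, hx⟩ := Equiv.Perm.exists_fixed_point_of_prime (p := 3) (n := 1) (α := K)
    (by
      rw [← Nat.card_eq_fintype_card, hn]
      exact fun e => absurd (Nat.prime_three.dvd_of_dvd_pow e) (by norm_num))
    (σ := ⟨m, fun x => m (m x), hm, hm⟩) (Equiv.ext hm)
  refine ⟨u * x, U.mul_mem hu x.2.1, ?_, by rw [hθ _ hu _ x.2.1, x.2.2, add_zero]⟩
  exact inv_mul_eq_iff_eq_mul.1 (congrArg Subtype.val hx)

theorem St.nsm (S : St F h) [U.Characteristic] (hθ : Ad U θ) {u : A} (hu : u ∈ U) :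
    26 • θ u = 0 := by
  have e : ∀ s, 2 • (θ u + θ (F (0 + -2 * s) (h u)) + θ (F (0 + -8 * s) (h (h u)))) = 0 := fun s => by
    obtain ⟨c, hc, h1, h2⟩ := S.invH ((hθ.comp (F s)).norm h) (fun x _ => S.norm _ x)
      (mm (F (-s)) hu)
    simp only [N, h1, S.hF, S.add, add_neg_cancel, S.zero] at h2
    rw [show 0 + -2 * s = s + 3 * -s by ring, show 0 + -8 * s = s + 3 * (3 * -s) by ring, ← h2]
    have := hθ _ (mm (F s) hc) _ (mm (F s) hc)
    rw [← map_mul, S.c2 c h1, map_one, hθ.one] at this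
    rw [show 2 • (θ (F s c) + θ (F s c) + θ (F s c)) = 3 • (θ (F s c) + θ (F s c)) by abel, ← this,
      smul_zero]
  have := Finset.sum_eq_zero (s := Finset.univ) fun s _ => e s
  rw [← Finset.smul_sum, Finset.sum_add_distrib, Finset.sum_add_distrib,
    shift (a := -2) (a' := 6) (by decide) 0 fun s => θ (F s (h u)),
    shift (a := -8) (a' := 8) (by decide) 0 fun s => θ (F s (h (h u))), S.sumF hθ (mm _ hu),
    S.sumF hθ (mm _ (mm _ hu)), add_zero, add_zero, Finset.sum_const, Finset.card_univ, ZMod.card,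
    smul_smul] at this
  exact this

theorem St.sq_mem (S : St F h) (U : Subgroup A) [U.Characteristic] {u : A} (hu : u ∈ U) :
    u ^ 2 ∈ ⁅U, U⁆ := by
  classical
  have := S.nsm (U := U) (θ := fun x => if hx : x ∈ U then
    Additive.ofMul (Abelianization.of (⟨x, hx⟩ : U)) else 0)
    (fun x hx y hy => by
      simp only [dif_pos hx, dif_pos hy, dif_pos (U.mul_mem hx hy), ← ofMul_mul, ← map_mul]; rfl) hu
  rw [dif_pos hu, ← ofMul_pow, ofMul_eq_zero] at this
  obtain ⟨n, hn⟩ := S.p2 u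
  have h2 : Abelianization.of (⟨u, hu⟩ : U) ^ 2 ^ n = 1 := by
    rw [← map_pow, show (⟨u, hu⟩ : U) ^ 2 ^ n = 1 from Subtype.ext hn, map_one]
  have h3 : Abelianization.of (⟨u, hu⟩ : U) ^ 2 = 1 := orderOf_dvd_iff_pow_eq_one.1
    (Nat.Coprime.dvd_of_dvd_mul_right (n := 13) (Nat.Coprime.coprime_dvd_left
      (orderOf_dvd_of_pow_eq_one h2) (Nat.Coprime.pow_left _ (by norm_num)))
      (orderOf_dvd_of_pow_eq_one this))
  rw [← map_pow, ← MonoidHom.mem_ker, Abelianization.ker_of] at h3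
  exact map_subtype_commutator U ▸ mem_map_of_mem U.subtype h3

/-- The pairs of weights that carry no commutator. -/
def Good (i j : Z) : Prop := i = 0 ∨ j = 0 ∨ i + j = 0 ∨
  (i + j ≠ i * 1 + j * 9 ∧ i + j ≠ i * 1 + j * 3 ∧ i + j ≠ i * 9 + j * 1 ∧ i + j ≠ i * 9 + j * 9 ∧
    i + j ≠ i * 9 + j * 3 ∧ i + j ≠ i * 3 + j * 1 ∧ i + j ≠ i * 3 + j * 9 ∧ i + j ≠ i * 3 + j * 3)

instance (i j : Z) : Decidable (Good i j) := by unfold Good; infer_instance

theorem good3 : ∀ i j l : Z, (Good i j ∨ Good (i + j) l) ∨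
    ((Good j l ∨ Good (j + l) i) ∧ (Good l i ∨ Good (l + i) j)) := by decide +kernel

variable {k : Type*} [Field k] {χ : AddChar Z k}

theorem St.lemB (S : St F h) [U.Characteristic] [W.Characteristic] (hχ : χ.IsPrimitive)
    (h13 : (13 : k) ≠ 0) {b : A → A → k} (hL : ∀ w ∈ W, Ad U fun u => b u w)
    (hR : ∀ u ∈ U, Ad W (b u)) (h0 : ∀ u w, Commute u w → b u w = 0)
    (h3 : ∀ u ∈ U, ∀ w ∈ W, ∑ r, b (F r u) (F r w) = 0) {i j : Z} (hij : Good i j) {u w : A}
    (hu : u ∈ U) (hw : w ∈ W) : S2 χ (fun s t => b (F s u) (F t w)) i j = 0 := by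
  rcases hij with rfl | rfl | e | e
  · rw [S2, Finset.sum_comm]
    refine Finset.sum_eq_zero fun t _ => ?_
    simp only [zero_mul, zero_add]
    rw [← Finset.mul_sum, S.sumF (hL _ (mm _ hw)) hu, mul_zero]
  · refine Finset.sum_eq_zero fun s _ => ?_
    simp only [zero_mul, add_zero]
    rw [← Finset.mul_sum, S.sumF (hR _ (mm _ hu)) hw, mul_zero]
  · have e1 : ∀ s, ∑ t, χ (i * s + j * t) * b (F s u) (F t w) =
        ∑ t, χ (j * t) * b (F s u) (F s (F t w)) := fun s => by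
      rw [← shift (mul_one 1) s]
      refine Finset.sum_congr rfl fun t _ => ?_
      rw [S.add, one_mul]
      congr 2
      linear_combination s * e
    simp only [S2, e1]
    rw [Finset.sum_comm]
    refine Finset.sum_eq_zero fun t _ => ?_
    rw [← Finset.mul_sum, h3 u hu _ (mm _ hw), mul_zero]
  have H4 : ∀ r, ∀ u ∈ U, ∀ w ∈ W, N h (fun x => N h (fun y => b (F r x) (F r y)) w) u = 0 := by
    intro r u hu w hw
    obtain ⟨c, hc, c1, c2⟩ := S.invH (U := U) (θ := N h fun x => N h (fun y => b (F r x) (F r y)) w)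
      (Ad.norm ((((hL _ (mm (F r) hw)).comp (F r)).add ((hL _ (mm (F r) (mm h hw))).comp (F r))).add
        ((hL _ (mm (F r) (mm h (mm h hw)))).comp (F r))) h) (fun x _ => S.norm _ x) hu
    obtain ⟨d, hd, d1, d2⟩ := S.invH (((hR _ (mm (F r) hc)).comp (F r)).norm h)
      (fun x _ => S.norm _ x) hw
    have hcd : Commute c d := by
      have := mul_eq_one_iff_eq_inv.1 (S.c2 (c * d) (by rw [map_mul, c1, d1]))
      rwa [mul_inv_rev, ← mul_eq_one_iff_eq_inv.1 (S.c2 c c1),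
        ← mul_eq_one_iff_eq_inv.1 (S.c2 d d1)] at this
    rw [← c2, N, c1, c1, ← d2, N, d1, d1, h0 _ _ (hcd.map (F r))]
    ring
  have H5 : ∑ r, ∑ s, ∑ t, χ ((i + j) * r + i * s + j * t) *
      N h (fun x => N h (fun y => b (F r x) (F r y)) (F t w)) (F s u) = 0 := by
    simp only [H4 _ _ (mm _ hu) _ (mm _ hw), mul_zero, Finset.sum_const_zero]
  have k1 : (1 : Z) * 1 = 1 := by decide
  have k3 : (3 : Z) * 9 = 1 := by decide
  have k9 : (9 : Z) * 3 = 1 := by decide
  have K := fun (x y : A) {a a' c c' : Z} (ha : a * a' = 1) (hc : c * c' = 1) =>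
    key hχ (fun s t => b (F s x) (F t y)) i j ha hc
  have K1 := K u w k1 k1
  have K2 := K u (h w) k1 k3
  have K3 := K u (h (h w)) k1 k9
  have K4 := K (h u) w k3 k1
  have K5 := K (h u) (h w) k3 k3
  have K6 := K (h u) (h (h w)) k3 k9
  have K7 := K (h (h u)) w k9 k1
  have K8 := K (h (h u)) (h w) k9 k3
  have K9 := K (h (h u)) (h (h w)) k9 k9
  obtain ⟨e2, e3, e4, e5, e6, e7, e8, e9⟩ := e
  rw [if_neg e2, zero_mul] at K2
  rw [if_neg e3, zero_mul] at K3
  rw [if_neg e4, zero_mul] at K4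
  rw [if_neg e5, zero_mul] at K5
  rw [if_neg e6, zero_mul] at K6
  rw [if_neg e7, zero_mul] at K7
  rw [if_neg e8, zero_mul] at K8
  rw [if_neg e9, zero_mul] at K9
  simp only [one_mul, mul_one, if_true] at K1 K2 K3 K4 K7
  simp only [N, S.hF, S.add, ← mul_assoc, show (3 : Z) * 3 = 9 by decide, mul_add,
    Finset.sum_add_distrib, K1, K2, K3, K4, K5, K6, K7, K8, K9, add_zero] at H5
  exact (mul_eq_zero.1 H5).resolve_left h13

omit [Finite A] in
theorem cl (x y w : A) : ⁅x * y, w⁆ = ⁅x, ⁅y, w⁆⁆ * ⁅y, w⁆ * ⁅x, w⁆ := by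
  simp only [commutatorElement_def]; group

omit [Finite A] in
theorem cr (u x y : A) : ⁅u, x * y⁆ = ⁅u, x⁆ * (⁅x, ⁅u, y⁆⁆ * ⁅u, y⁆) := by
  simp only [commutatorElement_def]; group

omit [Finite A] in
theorem hw (a b c : A) : ⁅⁅a, b⁆, b * c * b⁻¹⁆ * ⁅⁅b, c⁆, c * a * c⁻¹⁆ * ⁅⁅c, a⁆, a * b * a⁻¹⁆ = 1 := by
  simp only [commutatorElement_def]; group

local notation "D " n:max => Subgroup.lowerCentralSeries (⊤ : Subgroup A) n

theorem mD {n : ℕ} {x : A} (hx : x ∈ D n) (y : A) : ⁅x, y⁆ ∈ D (n + 1) :=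
  commutator_mem_commutator hx (mem_top y)

theorem mD' {n : ℕ} {x : A} (hx : x ∈ D n) (y : A) : ⁅y, x⁆ ∈ D (n + 1) := by
  rw [← commutatorElement_inv]; exact inv_mem (mD hx y)

theorem lD (n : ℕ) {x : A} (hx : x ∈ D (n + 1)) : x ∈ D n :=
  Subgroup.lowerCentralSeries_antitone _ n.le_succ hx

theorem St.tri (S : St F h) (hχ : χ.IsPrimitive) (h13 : (13 : k) ≠ 0) {l : A → k}
    (l1 : Ad (D 2) l) (l2 : ∀ x ∈ D 3, l x = 0) (a b c : A) : l ⁅⁅a, b⁆, c⁆ = 0 := by
  have bL : ∀ w, Ad (D 1) fun u => l ⁅u, w⁆ := fun w x hx y hy => by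
    simp only
    rw [cl, l1 _ (mul_mem (lD _ (mD' (mD hy w) x)) (mD hy w)) _ (mD hx w),
      l1 _ (lD _ (mD' (mD hy w) x)) _ (mD hy w), l2 _ (mD' (mD hy w) x)]
    ring
  have bR : ∀ u ∈ D 1, Ad ⊤ fun w => l ⁅u, w⁆ := fun u hu x _ y _ => by
    simp only
    rw [cr, l1 _ (mD hu x) _ (mul_mem (lD _ (mD' (mD hu y) x)) (mD hu y)),
      l1 _ (lD _ (mD' (mD hu y) x)) _ (mD hu y), l2 _ (mD' (mD hu y) x), zero_add]
  have m1 : ∀ x y : A, ⁅x, y⁆ ∈ D 1 := fun x y => mD (n := 0) (mem_top x) y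
  have tL : ∀ w c : A, Ad ⊤ fun u : A => l ⁅⁅u, w⁆, c⁆ := fun w c x _ y _ => by
    have := bL c
    simp only [Ad] at this ⊢
    rw [cl, this _ (mul_mem (m1 _ _) (m1 _ _)) _ (m1 _ _), this _ (m1 _ _) _ (m1 _ _),
      l2 _ (mD (mD' (m1 y w) x) c)]
    ring
  have tR : ∀ u c : A, Ad ⊤ fun w : A => l ⁅⁅u, w⁆, c⁆ := fun u c x _ y _ => by
    have := bL c
    simp only [Ad] at this ⊢
    rw [cr, this _ (m1 _ _) _ (mul_mem (m1 _ _) (m1 _ _)), this _ (m1 _ _) _ (m1 _ _),
      l2 _ (mD (mD' (m1 u y) x) c), zero_add]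
  have jac : ∀ a b c : A, l ⁅⁅a, b⁆, c⁆ + l ⁅⁅b, c⁆, a⁆ + l ⁅⁅c, a⁆, b⁆ = 0 := fun a b c => by
    have e : ∀ u ∈ D 1, ∀ x y : A, l ⁅u, x * y * x⁻¹⁆ = l ⁅u, y⁆ := fun u hu x y => by
      have := bR u hu
      have h2 := this.inv (mem_top x)
      simp only [Ad] at this h2
      rw [this _ trivial _ trivial, this _ trivial _ trivial, h2]
      ring
    rw [← e _ (m1 a b) b c, ← e _ (m1 b c) c a, ← e _ (m1 c a) a b,
      ← l1 _ (mD (m1 _ _) _) _ (mD (m1 _ _) _),
      ← l1 _ (mul_mem (mD (m1 _ _) _) (mD (m1 _ _) _)) _ (mD (m1 _ _) _), hw, l1.one]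
  let T : Z → Z → Z → A → A → A → k := fun i j m a b c =>
    ∑ s, ∑ t, ∑ r, χ (i * s) * (χ (j * t) * (χ (m * r) * l ⁅⁅F s a, F t b⁆, F r c⁆))
  have T0 : ∀ i j m a b c, Good i j ∨ Good (i + j) m → T i j m a b c = 0 := by
    rintro i j m a b c (e | e)
    · have e1 : T i j m a b c =
          ∑ r, χ (m * r) * S2 χ (fun s t => l ⁅⁅F s a, F t b⁆, F r c⁆) i j := by
        simp only [T, S2, Finset.mul_sum, AddChar.map_add_eq_mul]
        rw [Finset.sum_comm_cycle]
        exact Finset.sum_congr rfl fun _ _ => Finset.sum_congr rfl fun _ _ =>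
          Finset.sum_congr rfl fun _ _ => by ring
      rw [e1]
      refine Finset.sum_eq_zero fun r _ => mul_eq_zero_of_right _ ?_
      refine S.lemB (U := ⊤) (W := ⊤) (b := fun u w => l ⁅⁅u, w⁆, F r c⁆) hχ h13 (fun w _ => tL w _)
        (fun u _ => tR u _) (fun u w e => ?_) (fun u _ w _ => ?_) e trivial trivial
      · simp only [commutatorElement_eq_one_iff_commute.2 e, commutatorElement_one_left, l1.one]
      · simpa only [map_commutatorElement] using S.sumF (bL (F r c)) (m1 u w)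
    · have e1 : T i j m a b c =
          ∑ t, χ (j * t) * S2 χ (fun s r => l ⁅F s ⁅a, F t b⁆, F r c⁆) (i + j) m := by
        simp only [T, S2, Finset.mul_sum]
        refine Eq.trans (Finset.sum_congr rfl fun s _ => ?_) Finset.sum_comm
        rw [← shift (mul_one 1) s]
        refine Finset.sum_congr rfl fun t _ => Finset.sum_congr rfl fun r _ => ?_
        simp only [map_commutatorElement, S.add, one_mul, ← mul_assoc, ← AddChar.map_add_eq_mul]
        congr 2
        ring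
      rw [e1]
      refine Finset.sum_eq_zero fun t _ => mul_eq_zero_of_right _ ?_
      refine S.lemB (U := D 1) (W := ⊤) (b := fun u w => l ⁅u, w⁆) hχ h13 (fun w _ => bL w)
        bR (fun u w e => ?_) (fun u hu w _ => ?_) e (m1 _ _) trivial
      · simp only [commutatorElement_eq_one_iff_commute.2 e, l1.one]
      · simpa only [map_commutatorElement] using S.sumF l1 (mD hu w)
  have TJ : ∀ i j m, T i j m a b c + T j m i b c a + T m i j c a b = 0 := fun i j m => by
    simp only [T]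
    rw [Finset.sum_comm_cycle (f := fun s t r => χ (j * s) * _),
      ← Finset.sum_comm_cycle (f := fun t r s => χ (m * s) * _)]
    simp only [← Finset.sum_add_distrib]
    refine Finset.sum_eq_zero fun s _ => Finset.sum_eq_zero fun t _ =>
      Finset.sum_eq_zero fun r _ => ?_
    linear_combination χ (i * s) * χ (j * t) * χ (m * r) * jac (F s a) (F t b) (F r c)
  have TZ : ∀ i j m, T i j m a b c = 0 := fun i j m => by
    rcases good3 i j m with e | ⟨e1, e2⟩
    · exact T0 _ _ _ _ _ _ e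
    · have := TJ i j m
      rwa [T0 _ _ _ _ _ _ e1, T0 _ _ _ _ _ _ e2, add_zero, add_zero] at this
  have := inv1 hχ h13 (g := fun r => l ⁅⁅F 0 a, F 0 b⁆, F r c⁆) fun m =>
    inv1 hχ h13 (g := fun t => ∑ r, χ (m * r) * l ⁅⁅F 0 a, F t b⁆, F r c⁆) fun j =>
      inv1 hχ h13 (g := fun s => ∑ t, χ (j * t) * ∑ r, χ (m * r) * l ⁅⁅F s a, F t b⁆, F r c⁆)
        fun i => by simpa only [T, Finset.mul_sum] using TZ i j m
  simpa only [S.zero] using this

theorem exists_char : ∃ (k : Type) (_ : Field k) (χ : AddChar Z k), χ.IsPrimitive ∧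
    (1 + 1 : k) = 0 := by
  have h : ((13 : ℕ+) : ZMod 2) ≠ 0 := by decide
  have h' : (1 + 1 : ZMod 2) = 0 := by decide
  let ψ := AddChar.primitiveZModChar 13 (ZMod 2) h
  refine ⟨_, _, ψ.char, ψ.prim, ?_⟩
  rw [← map_one (algebraMap (ZMod 2) _), ← map_add, h', map_zero]

theorem ite2 (h2 : (1 + 1 : k) = 0) {P Q R : Prop} [Decidable P] [Decidable Q] [Decidable R]
    (h : R ↔ (P ↔ Q)) : (if R then 0 else 1 : k) = (if P then 0 else 1) + if Q then 0 else 1 := by
  by_cases P <;> by_cases Q <;> simp_all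

theorem St.class2 (S : St F h) : (D 2) = ⊥ := by
  classical
  have : Fact (Nat.Prime 2) := ⟨Nat.prime_two⟩
  by_contra hne
  have := S.p2.isNilpotent
  have hlt : ¬ (D 2) ≤ D 3 := fun e => by
    have e1 : ∀ n, (D 2) ≤ D (n + 2) := fun n => by
      induction n with
      | zero => exact le_rfl
      | succ n ih => exact e.trans (commutator_mono ih le_rfl)
    obtain ⟨n, hn⟩ := Subgroup.nilpotent_iff_lowerCentralSeries.1 this
    exact hne (eq_bot_iff.2 ((e1 n).trans (hn ▸ Subgroup.lowerCentralSeries_antitone _ (n.le_add_right 2))))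
  obtain ⟨n, hn⟩ := (S.p2.to_subgroup (D 2)).exists_card_eq
  obtain ⟨m, hm⟩ := ((S.p2.to_subgroup (D 2)).to_subgroup ((D 3).subgroupOf (D 2))).exists_card_eq
  have hmn : m < n := by
    refine (Nat.pow_lt_pow_iff_right one_lt_two).1 ?_
    rw [← hn, ← hm]
    exact lt_of_le_of_ne (card_le_card_group _) fun e =>
      hlt (subgroupOf_eq_top.1 ((card_eq_iff_eq_top _).1 e))
  obtain ⟨n, rfl⟩ : ∃ n', n = n' + 1 := ⟨n - 1, by omega⟩
  obtain ⟨K, hK, hle⟩ := Sylow.exists_subgroup_card_pow_prime_le 2 (m := n)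
    (hn ▸ pow_dvd_pow 2 n.le_succ) _ hm (by omega)
  have hi : K.index = 2 := by
    have := K.card_mul_index
    rw [hK, hn, pow_succ] at this
    exact Nat.eq_of_mul_eq_mul_left (by positivity) this
  obtain ⟨k, _, χ, hχ, h2⟩ := exists_char
  have key := S.tri hχ (l := fun x => if x ∈ K.map (D 2).subtype then 0 else 1)
    (fun e => one_ne_zero (α := k) (by linear_combination e - 6 * h2))
    (fun x hx y hy => by
      have e : ∀ z (hz : z ∈ D 2), z ∈ K.map (D 2).subtype ↔ (⟨z, hz⟩ : D 2) ∈ K := fun z hz =>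
        mem_map_iff_mem (f := (D 2).subtype) (subtype_injective _) (x := ⟨z, hz⟩)
      refine ite2 h2 ?_
      rw [e _ hx, e _ hy, e _ (mul_mem hx hy)]
      exact mul_mem_iff_of_index_two hi (a := ⟨x, hx⟩) (b := ⟨y, hy⟩))
    (fun x hx => if_pos ⟨⟨x, lD _ hx⟩, hle hx, rfl⟩)
  have hall : (D 2) ≤ K.map (D 2).subtype := by
    refine commutator_le.2 fun u hu c _ => ?_
    induction hu using closure_induction with
    | mem x hx =>
      obtain ⟨a, -, b, -, rfl⟩ := hx
      by_contra e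
      exact one_ne_zero ((if_neg e).symm.trans (key a b c))
    | one => simp
    | mul x y hx hy h1 h3 =>
      rw [cl]
      exact mul_mem (mul_mem ⟨⟨_, lD _ (mD' (mD (n := 1) hy c) x)⟩, hle (mD' (mD (n := 1) hy c) x), rfl⟩
        h3) h1
    | inv x hx h1 =>
      rw [show ⁅x⁻¹, c⁆ = (⁅x⁻¹, ⁅x, c⁆⁆ * ⁅x, c⁆)⁻¹ by simp only [commutatorElement_def]; group]
      exact inv_mem (mul_mem
        ⟨⟨_, lD _ (mD' (mD (n := 1) hx c) _)⟩, hle (mD' (mD (n := 1) hx c) _), rfl⟩ h1)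
  have := card_le_of_le hall
  rw [card_map_of_injective (subtype_injective _), hK, hn, pow_succ] at this
  have : 0 < 2 ^ n := by positivity
  omega

theorem St.exp4 (S : St F h) (a : A) : a ^ 4 = 1 := by
  have := S.sq_mem (D 1) (S.sq_mem ⊤ (mem_top a))
  rw [← pow_mul] at this
  exact mem_bot.1 (S.class2 ▸ commutator_mono le_rfl le_top this)

end H40.L13
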