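import Cfsg.Agent.H86.M8.Def
import Cfsg.Agent.H56.OmegaFin

/-! Tower O84 (S3384): lower bound for the normaliser of the torus in the model of `Ω₈⁺(4)`. -/

set_option autoImplicit false

namespace H40.O84Ge

open H6 (F4)
open H56 QuadraticMap Subgroup H86.M8

theorem ke_conj (ε : Fin 4 → Bool) (a : Fin 4 → ZMod 5) :
    ke ε * tt a = tt (fun k => if ε k then -a k else a k) * ke ε :=
  O.ext fun x => funext fun k => by
    simp only [O.mul_apply, ke_apply, tt_apply]
    split_ifs
    · rw [star_mul, st_zt, mul_comm]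
    · rfl

theorem Pm_conj (π : Equiv.Perm (Fin 4)) (a : Fin 4 → ZMod 5) :
    Pm π * tt a = tt (fun k => a (π.symm k)) * Pm π :=
  O.ext fun x => funext fun k => by simp only [O.mul_apply, Pm_apply, tt_apply]

theorem mem_nor {g : O Q} (h : ∀ a, ∃ b, g * tt a = tt b * g) : g ∈ normalizer (T0 : Set (O Q)) := by
  have : Finite T0 := Finite.of_surjective _ tau.rangeRestrict_surjective
  refine Subgroup.mem_normalizer_fintype fun n hn => ?_
  obtain ⟨a, rfl⟩ := hn
  obtain ⟨b, hb⟩ := h a.toAdd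
  exact ⟨Multiplicative.ofAdd b, (mul_inv_eq_iff_eq_mul.2 hb).symm⟩

/-- the monomial elements -/
def mono (p : (Fin 4 → ZMod 5) × (Fin 4 → Bool) × Equiv.Perm (Fin 4)) :
    normalizer (T0 : Set (O Q)) :=
  ⟨tt p.1 * ke p.2.1 * Pm p.2.2, mul_mem (mul_mem (le_normalizer ⟨_, rfl⟩)
    (mem_nor fun a => ⟨_, ke_conj _ a⟩)) (mem_nor fun a => ⟨_, Pm_conj _ a⟩)⟩

theorem zt_ne (a : ZMod 5) : zt a ≠ 0 := fun h => by
  have := nr_zt a
  rw [h, nr_zero] at this
  exact zero_ne_one this

theorem mono_apply (p : (Fin 4 → ZMod 5) × (Fin 4 → Bool) × Equiv.Perm (Fin 4)) (x : V) (k : Fin 4) :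
    (mono p).1 x k = zt (p.1 k) * if p.2.1 k then star (x (p.2.2.symm k)) else x (p.2.2.symm k) := by
  simp only [mono, O.mul_apply, tt_apply, ke_apply, Pm_apply]

theorem mono_inj : Function.Injective mono := by
  rintro ⟨a, ε, π⟩ ⟨b, δ, σ⟩ h
  have h1 : ∀ (x : V) k, zt (a k) * (if ε k then star (x (π.symm k)) else x (π.symm k)) =
      zt (b k) * if δ k then star (x (σ.symm k)) else x (σ.symm k) := fun x k =>
    (mono_apply (a, ε, π) x k).symm.trans ((congrArg (fun g => g.1 x k) h).trans (mono_apply _ x k))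
  obtain rfl : a = b := funext fun k => zt_inj _ _ (by simpa using h1 (fun _ => 1) k)
  have h2 := fun x k => mul_left_cancel₀ (zt_ne (a k)) (h1 x k)
  obtain rfl : ε = δ := funext fun k => by
    have h3 := h2 (fun _ => zt 1) k
    have h4 : star (zt 1) ≠ zt 1 := by rw [st_zt]; exact fun e => absurd (zt_inj _ _ e) (by decide)
    cases h5 : ε k <;> cases h6 : δ k
    · rfl
    · rw [h5, h6] at h3; exact absurd h3.symm h4
    · rw [h5, h6] at h3; exact absurd h3 h4
    · rfl
  obtain rfl : π = σ := Equiv.symm_bijective.1 (Equiv.ext fun k => by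
    have h3 := h2 (Pi.single (π.symm k) 1) k
    by_contra h4
    rw [Pi.single_eq_same, Pi.single_eq_of_ne (Ne.symm h4)] at h3
    simp at h3)
  rfl

theorem ncard_ge : 625 * 192 ≤ Nat.card ↥(normalizer (T0 : Set (O Q)) ⊓ commutator (O Q)) := by
  have : Finite (O Q) := Finite.of_injective (fun g : O Q => (g : V → V)) DFunLike.coe_injective
  set N := normalizer (T0 : Set (O Q))
  have h1 := Nat.card_le_card_of_injective mono mono_inj
  have h2 : Nat.card ((Fin 4 → ZMod 5) × (Fin 4 → Bool) × Equiv.Perm (Fin 4)) = 625 * 384 := by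
    simp [Nat.card_eq_fintype_card, Fintype.card_perm, Nat.factorial]
  have h3 : (commutator (O Q)).index = 2 :=
    index_commutator_of_char_two nd (by rw [← one_add_one_eq_two, H6.F4.add_self]) nexc
      (by rw [finrank_V]; decide)
  have h4 : (commutator (O Q)).relIndex N ≤ 2 :=
    Nat.le_of_dvd two_pos (h3 ▸ relIndex_dvd_index_of_normal _ _)
  have h5 := ((commutator (O Q)).subgroupOf N).index_mul_card
  have h6 : Nat.card ((commutator (O Q)).subgroupOf N) = Nat.card ↥(N ⊓ commutator (O Q)) := by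
    rw [← inf_subgroupOf_left, Nat.card_congr (subgroupOfEquivOfLe inf_le_left).toEquiv]
  rw [h6] at h5
  change (commutator (O Q)).relIndex N * _ = _ at h5
  nlinarith

end H40.O84Ge
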