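/- Tower O84: the top, conditional on the Lie side, the certificates and the existence part. -/
import Cfsg.Agent.H36.O84Fin
import Cfsg.Agent.H36.O84Ord
import Cfsg.Agent.H86.M8.Fin
import Cfsg.Agent.H12.O84Gam

set_option autoImplicit false

namespace H40.O84Top

attribute [local instance] H65.tabE8 H65.commE8

theorem final_sub {G G' : Type} [Group G] [Group G'] (A : Subgroup G) (B : Subgroup G') [Finite B]
    (S : Nonempty (H36.O84.Sys A)) (e : Nonempty (A ≃* B)) {Om : Type*} [Group Om]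
    (m : Nonempty (H36.O84.Mod Om)) (c : H36.O84.Certs) (hE : H36.O84.TwoOm B Om) :
    H36.O84.Concl B Om := H36.O84.final' S e m c hE

theorem top (L : List ℕ)
    (hS : Nonempty (H36.O84.Sys (H46.O84.Gam Cfsg.Lie.chevE8 H12.O84.K2 L))) (hC : H36.O84.Certs)
    (F₄ : Type*) [Field F₄] [Fintype F₄] (hF₄ : Fintype.card F₄ = 4)
    (hE : H36.O84.TwoOm (Cfsg.Lie.chevE8.group (ZMod 2))
      (Cfsg.Omega F₄ (Cfsg.quadFormPlus 4 F₄))) :
    H36.O84.Concl (Cfsg.Lie.chevE8.group (ZMod 2)) (Cfsg.Omega F₄ (Cfsg.quadFormPlus 4 F₄)) := by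
  have := H36.O84.finite_E82
  exact final_sub _ _ hS (H12.O84.nonempty_gam L) (H86.M8.modOm F₄ hF₄) hC hE

end H40.O84Top
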