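/- S3694 (tower SIM), chapter XA: job END. -/
import Cfsg.Agent.H53.SimXASpec

set_option autoImplicit false

namespace H40.XAEnd

open Subgroup Cfsg H98 Matrix H0.Sim H53.XA

theorem job : JEND := by
  intro rp red ns bi n F _ _ u q p Θ H Q E g x h
  obtain ⟨hE, -, -, ⟨e, eE, ne⟩, -, nE⟩ := rp n F u q p Θ H Q E g x
  have cm := (red n F u q E x.par.card hE).1
  have eS : (e : Mt n F) ∈ Sp E := Submodule.subset_span ⟨e, eE, rfl⟩
  have st : St g (Sp E : Set (Mt n F)) := fun m hm => by
    induction hm using Submodule.span_induction with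
    | mem m hm =>
      obtain ⟨a, ha, rfl⟩ := hm
      exact h _ (conj_mem_cj ha)
    | zero => simp
    | add a b _ _ ha hb =>
      rw [mul_add, add_mul]
      exact (Sp E).add_mem ha hb
    | smul c a _ ha =>
      rw [mul_smul_comm, smul_mul_assoc]
      exact (Sp E).smul_mem c ha
  exact x.Bne (cj_eq_self (nE (x.mp _ (bi n F u q p Θ H Q E g x).1
    (ns n F u q _ x.par ⟨e, hE.le eE, ne, fun m hm => (cm _ eS m hm).2⟩ ⟨e, eS, ne⟩) g x.gS st)))

end H40.XAEnd
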