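/- S3694 (tower SIM), chapter XS: job U9. -/
import Cfsg.Agent.H52.SimXSSpec

set_option autoImplicit false

namespace H40.XSU9

open Subgroup Cfsg H98 Matrix H0.Sim H52.XS
open scoped commutatorElement

theorem job : JobU9 := by
  intro z4 jd tau yy F _ _ Θ H Q E E₃ cf ex t3 a aE e eE aZ eZ a3 e3
  have h4 : Fintype.card F = 4 := cf.par.card
  obtain ⟨-, z3, zg, zw⟩ := z4 9 F _ h4 ex.Zc
  obtain ⟨y, yE, hy⟩ : ∃ y ∈ E, a * y ≠ y * a := by
    by_contra k
    push Not at k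
    exact aZ (ex.ce a aE k)
  have zZ := ex.cm y yE a aE
  have z1 : ⁅y, a⁆ ≠ 1 := fun k => hy (commutatorElement_eq_one_iff_mul_comm.1 k).symm
  obtain ⟨w, hw, hz⟩ := zw _ zZ z1
  have ce : ∀ x ∈ E, Commute x e := fun x hx => t3.C3 eE x hx
  have b3 : (a * e) ^ 3 = 1 := by rw [(ce a aE).mul_pow, a3, e3, one_mul]
  have bG : a * e ∈ GU 9 F 2 := cf.HG (cf.QH (mul_mem (cf.EQ aE) (t3.Q3 eE)))
  have yb : y * (a * e) * y⁻¹ = ⁅y, a⁆ * (a * e) := by
    rw [commutatorElement_def, mul_assoc y, mul_assoc a, ← (ce y yE).inv_left.eq]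
    group
  have bY : a * e ∈ E ⊔ E₃ := mul_mem (mem_sup_left aE) (mem_sup_right eE)
  have zE := ex.ZE zZ
  have zp := zg _ zZ z1
  have zz := z3 _ zZ
  generalize ⁅y, a⁆ = z at yb zE zp zz hz
  have sm : ∀ m : GL (Fin 9) F, ((z * m : GL (Fin 9) F) : Mt 9 F) = w • (m : Mt 9 F) := fun m => by
    rw [Units.val_mul, hz, smul_mul_assoc, one_mul]
  have yb' := (congrArg Units.val yb).trans (sm _)
  obtain ⟨τ, τG, τe, t0, t1, t2⟩ := tau 9 F w (a * e) h4 hw b3 bG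
  obtain ⟨cY, nY⟩ := yy 9 F true 2 3 Θ H Q E E₃ cf t3
  have τS : τ ∈ Sg 9 F true 2 := mem_inf.2 ⟨τG, MonoidHom.mem_ker.2 (Units.ext (by
    have := jd F w (a * e) y h4 hw b3 yb'
    rw [← τe] at this
    rw [GeneralLinearGroup.val_det_apply, this, Units.val_one]))⟩
  have τN := nY τ τS (mem_normalizer_of_cj_le (by
    rintro _ ⟨x, hx, rfl⟩
    show τ * x * τ⁻¹ ∈ E ⊔ E₃
    obtain ⟨k, hk⟩ := mem_powers_iff_mem_zpowers.2 (zp (cY x hx _ bY))
    have e1 : x * (a * e) * x⁻¹ = z ^ (k % 3) * (a * e) := by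
      rw [← pow_eq_pow_mod k zz]
      exact mul_inv_eq_iff_eq_mul.1 hk.symm
    obtain h | h | h : k % 3 = 0 ∨ k % 3 = 1 ∨ k % 3 = 2 := by omega
    · rw [h, pow_zero, one_mul, mul_inv_eq_iff_eq_mul] at e1
      rwa [t0 x e1]
    · rw [h, pow_one] at e1
      rw [Units.ext ((t1 x ((congrArg Units.val e1).trans (sm _))).trans (sm _).symm)]
      exact mul_mem (mem_sup_left zE) (mul_mem (mul_mem bY bY) hx)
    · rw [h, pow_two, mul_assoc z] at e1
      rw [Units.ext ((t2 x ((congrArg Units.val e1).trans (by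
        rw [sm, sm, smul_smul, pow_two]))).trans (sm _).symm)]
      exact mul_mem (mem_sup_left zE) (mul_mem bY hx)))
  have h1 := conj_mem_of_mem_normalizer τN yE
  rw [Units.ext ((t1 y yb').trans (sm _).symm), mul_mem_cancel_left zE,
    mul_mem_cancel_right yE, ← pow_two, (ce a aE).mul_pow, mul_mem_cancel_left (pow_mem aE 2)] at h1
  have h2 := pow_mem h1 2
  rw [← pow_mul, show 2 * 2 = 3 + 1 from rfl, pow_succ, e3, one_mul] at h2
  exact eZ (ex.ce e h2 fun x hx => (ce x hx).symm.eq)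

end H40.XSU9
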